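import Cfsg.Agent.Lib.JComponents.Common
import Cfsg.Agent.Lib.CoprimeAction.Abelian

/-!
A single `J(T)`-component `K`: Sylow subgroup, four-group `W_K`, and the decomposition of
`Ω₁(Z(J(T)))`.
-/

set_option autoImplicit false

namespace CfsgLib.JComponents

open Cfsg CfsgLib.ThompsonJ Subgroup
open scoped commutatorElement

variable {G : Type*} [Group G] {T K : Subgroup G}

/-! ### four-groups -/

/-- The elements of a four-group. -/
lemma four_cases [Finite G] {W : Subgroup G} (hW : Nat.card W = 4) (h2 : ∀ x ∈ W, x * x = 1)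
    {w v : G} (hw : w ∈ W) (hv : v ∈ W) (hw1 : w ≠ 1) (hv1 : v ≠ 1) (hwv : v ≠ w) {x : G}
    (hx : x ∈ W) : x = 1 ∨ x = w ∨ x = v ∨ x = v * w := by
  classical
  by_contra! h
  obtain ⟨h1, h3, h4, h5⟩ := h
  haveI : Fintype ↥W := Fintype.ofFinite _
  have hvw1 : v * w ≠ 1 := fun e => hwv (by
    rw [← mul_one v, ← h2 w hw, ← mul_assoc, e, one_mul])
  have hvwv : v * w ≠ v := fun e => hw1 (mul_eq_left.1 e)
  have hvww : v * w ≠ w := fun e => hv1 (mul_eq_right.1 e)
  set S : Finset ↥W := {⟨1, W.one_mem⟩, ⟨w, hw⟩, ⟨v, hv⟩, ⟨v * w, W.mul_mem hv hw⟩, ⟨x, hx⟩}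
    with hSdef
  have hs : S.card = 5 := by
    rw [hSdef]
    simp [Subtype.ext_iff, hw1.symm, hv1.symm, hwv.symm, hvw1.symm, hvwv.symm, hvww.symm, h1.symm,
      h3.symm, h4.symm, h5.symm]
  have := S.card_le_univ
  rw [← Nat.card_eq_fintype_card, hW, hs] at this
  omega

/-- A 2-group normalising a four-group fixes an involution of it, modulo which it centralises. -/
lemma exists_fixed_four [Finite G] {W S : Subgroup G} (hW : Nat.card W = 4)
    (h2 : ∀ x ∈ W, x * x = 1) (hS : IsPGroup 2 S) (hn : S ≤ normalizer (W : Set G)) :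
    ∃ w ∈ W, w ≠ 1 ∧ (∀ s ∈ S, s * w * s⁻¹ = w) ∧
      ∀ s ∈ S, ∀ v ∈ W, s * v * s⁻¹ = v ∨ s * v * s⁻¹ = v * w := by
  haveI : Fact (Nat.Prime 2) := ⟨Nat.prime_two⟩
  letI : MulAction ↥S ↥W :=
    { smul := fun s v => ⟨s * v * (s : G)⁻¹, conj_mem_of_mem_normalizer (hn s.2) v.2⟩
      one_smul := fun v => Subtype.ext (by
        show ((1 : ↥S) : G) * v * ((1 : ↥S) : G)⁻¹ = v
        simp)
      mul_smul := fun s t v => Subtype.ext (by
        show ((s * t : ↥S) : G) * v * ((s * t : ↥S) : G)⁻¹ =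
          s * ((t : G) * v * (t : G)⁻¹) * (s : G)⁻¹
        simp [mul_assoc]) }
  have hone : (1 : ↥W) ∈ MulAction.fixedPoints ↥S ↥W := fun s => Subtype.ext (by
    show (s : G) * ((1 : ↥W) : G) * (s : G)⁻¹ = ((1 : ↥W) : G)
    simp)
  obtain ⟨⟨w, hw⟩, hwf, hw1⟩ :=
    hS.exists_fixed_point_of_prime_dvd_card_of_fixed_point ↥W (hW ▸ (by norm_num : 2 ∣ 4)) hone
  have hwfix : ∀ s ∈ S, s * w * s⁻¹ = w := fun s hs => congrArg Subtype.val (hwf ⟨s, hs⟩)
  have hw1' : w ≠ 1 := fun e => hw1 (Subtype.ext e.symm)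
  refine ⟨w, hw, hw1', hwfix, fun s hs v hv => ?_⟩
  rcases eq_or_ne v 1 with rfl | hv1
  · left; simp
  rcases eq_or_ne v w with rfl | hvw
  · left; exact hwfix s hs
  rcases four_cases hW h2 hw hv hw1' hv1 hvw (conj_mem_of_mem_normalizer (hn hs) hv) with
    h | h | h | h
  · exact absurd (conj_eq_one_iff.1 h) hv1
  · exact absurd (mul_left_cancel (mul_right_cancel (h.trans (hwfix s hs).symm))) hvw
  · exact .inl h
  · exact .inr h

/-! ### normalisation and Sylow subgroup -/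

section

variable (hK : IsJComponent T K)
include hK

lemma comp_comm : ⁅K, thompsonSubgroupOf 2 T⁆ = K := hK.2.1

lemma comp_oddGen : oddGen K = K := hK.1

lemma comp_le_normalizer : thompsonSubgroupOf 2 T ≤ normalizer (K : Set G) := by
  have h := le_normalizer_commutator_right K (thompsonSubgroupOf 2 T)
  rwa [hK.2.1] at h

variable [Finite G]

lemma comp_le_normalizer_core : thompsonSubgroupOf 2 T ≤ normalizer (pCoreOf 2 K : Set G) :=
  (comp_le_normalizer hK).trans (CfsgLib.FFModules.normalizer_le_normalizer_pCoreOf K)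

lemma comp_le_normalizer_core' : K ≤ normalizer (pCoreOf 2 K : Set G) :=
  CfsgLib.FFModules.le_normalizer_pCoreOf K

omit [Finite G] in
lemma isPGroup_thompson (hT : IsPGroup 2 T) : IsPGroup 2 ↥(thompsonSubgroupOf 2 T) :=
  hT.to_le (thompsonSubgroupOf_le 2 T)

lemma comp_isSylow (hT : IsPGroup 2 T) :
    IsSylowTwoIn (pCoreOf 2 K ⊔ thompsonSubgroupOf 2 T) (K ⊔ thompsonSubgroupOf 2 T) := by
  set J := thompsonSubgroupOf 2 T with hJ
  set R := pCoreOf 2 K with hR
  have hRK : R ≤ K := CfsgLib.FFModules.pCoreOf_le K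
  refine ⟨sup_le (hRK.trans le_sup_left) le_sup_right, ?_, ?_⟩
  · rw [sup_comm]
    exact isPGroup_sup (isPGroup_thompson hK hT) (CfsgLib.FFModules.isPGroup_pCoreOf K)
      (comp_le_normalizer_core hK)
  have hle : R ⊔ J ≤ normalizer (K : Set G) :=
    sup_le (hRK.trans le_normalizer) (comp_le_normalizer hK)
  have hY : K ⊔ J = (R ⊔ J) ⊔ K :=
    le_antisymm (sup_le le_sup_right (le_sup_right.trans le_sup_left))
      (sup_le (sup_le (hRK.trans le_sup_left) le_sup_right) le_sup_left)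
  have h1 := card_sup_mul_inf hle
  rw [← hY] at h1
  have h2 : (R ⊔ J).relIndex (K ⊔ J) = ((R ⊔ J) ⊓ K).relIndex K := by
    have e1 := card_mul_relIndex' (show R ⊔ J ≤ K ⊔ J from hY ▸ le_sup_left)
    have e2 := card_mul_relIndex' (inf_le_right : (R ⊔ J) ⊓ K ≤ K)
    refine Nat.eq_of_mul_eq_mul_left
      (Nat.mul_pos (Nat.card_pos (α := ↥(R ⊔ J))) (Nat.card_pos (α := ↥((R ⊔ J) ⊓ K)))) ?_
    calc _ = Nat.card ↥(R ⊔ J) * (R ⊔ J).relIndex (K ⊔ J) * Nat.card ↥((R ⊔ J) ⊓ K) := by ring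
      _ = Nat.card ↥(R ⊔ J) * (Nat.card ↥((R ⊔ J) ⊓ K) * ((R ⊔ J) ⊓ K).relIndex K) := by
        rw [e1, e2, h1]
      _ = _ := by ring
  rw [h2]
  refine Odd.of_dvd_nat (n := 3) (by decide) ?_
  rw [← hK.2.2.1]
  exact relIndex_dvd_of_le_left K (le_inf le_sup_left hRK)

lemma comp_thompson (hT : IsPGroup 2 T) :
    thompsonSubgroupOf 2 (pCoreOf 2 K ⊔ thompsonSubgroupOf 2 T) = thompsonSubgroupOf 2 T :=
  hK.2.2.2.1 _ (comp_isSylow hK hT) le_sup_right

omit [Finite G] in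
lemma comp_sup_eq {k : G} (hk : k ∈ K) (hkR : k ∉ pCoreOf 2 K) :
    pCoreOf 2 K ⊔ zpowers k = K := by
  have hle : pCoreOf 2 K ⊔ zpowers k ≤ K :=
    sup_le (map_subtype_le _) (zpowers_le.2 hk)
  have h := relIndex_mul_relIndex (pCoreOf 2 K) _ _ le_sup_left hle
  rw [hK.2.2.1] at h
  rcases (Nat.dvd_prime Nat.prime_three).1 (Dvd.intro _ h) with h' | h'
  · exact absurd (relIndex_eq_one.1 h' (le_sup_right (a := pCoreOf 2 K) (mem_zpowers k))) hkR
  · rw [h'] at h
    exact le_antisymm hle (relIndex_eq_one.1 (by omega))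

omit [Finite G] in
lemma comp_exists_odd : ∃ x ∈ K, x ∉ pCoreOf 2 K ∧ Odd (orderOf x) := by
  by_contra! h
  have hle : K ≤ pCoreOf 2 K := by
    conv_lhs => rw [← hK.1]
    refine (closure_le _).2 fun g hg => ?_
    by_contra hgR
    exact Nat.not_odd_iff_even.2 (Nat.not_odd_iff_even.1 (h g hg.1 hgR)) hg.2
  have := hK.2.2.1
  rw [relIndex_eq_one.2 hle] at this
  omega

end

/-! ### the four-group `W_K` -/

lemma omegaCenterOf_le (X : Subgroup G) : omegaCenterOf X ≤ X :=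
  (omegaOne_le 2 _).trans inf_le_left

lemma omegaCenterOf_le_centralizer (X : Subgroup G) :
    omegaCenterOf X ≤ centralizer (X : Set G) :=
  (omegaOne_le 2 _).trans inf_le_right

lemma isElementaryAbelian_omegaCenterOf (X : Subgroup G) :
    IsElementaryAbelian 2 (omegaCenterOf X) :=
  isElementaryAbelian_omegaOne (inf_centralizer_le_centralizer_self _)

lemma map_omegaCenterOf {f : G →* G} (hf : Function.Injective f) (X : Subgroup G) :
    (omegaCenterOf X).map f = omegaCenterOf (X.map f) := by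
  rw [omegaCenterOf, map_omegaOne hf, map_inf_centralizer hf]; rfl

lemma normalizer_le_normalizer_omegaCenterOf (X : Subgroup G) :
    normalizer (X : Set G) ≤ normalizer (omegaCenterOf X : Set G) := fun g hg => by
  rw [mem_normalizer_iff_map_conj_eq] at hg ⊢
  rw [map_omegaCenterOf (MulAut.conj g).injective, hg]

lemma normalizer_le_normalizer_wOf [Finite G] (K : Subgroup G) :
    normalizer (K : Set G) ≤ normalizer (wOf K : Set G) := fun g hg => by
  have h := normalizer_le_normalizer_omegaCenterOf (pCoreOf 2 K)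
    (CfsgLib.FFModules.normalizer_le_normalizer_pCoreOf K hg)
  rw [mem_normalizer_iff_map_conj_eq] at hg h ⊢
  rw [wOf, map_commutator, hg, h]

lemma wOf_le_omega [Finite G] (K : Subgroup G) : wOf K ≤ omegaCenterOf (pCoreOf 2 K) :=
  commutator_le.2 fun u hu k hk => by
    rw [commutatorElement_def, show u * k * u⁻¹ * k⁻¹ = u * (k * u⁻¹ * k⁻¹) by group]
    exact mul_mem hu (conj_mem_of_mem_normalizer
      (normalizer_le_normalizer_omegaCenterOf _ (CfsgLib.FFModules.le_normalizer_pCoreOf K hk))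
      (inv_mem hu))

lemma wOf_le_core [Finite G] (K : Subgroup G) : wOf K ≤ pCoreOf 2 K :=
  (wOf_le_omega K).trans (omegaCenterOf_le _)

section

variable [Finite G] (hK : IsJComponent T K)
include hK

omit [Finite G] in
lemma wOf_card : Nat.card ↥(wOf K) = 4 := hK.2.2.2.2.1

omit [Finite G] in
lemma wOf_sq : ∀ w ∈ wOf K, w * w = 1 := hK.2.2.2.2.2

lemma wOf_elem : IsElementaryAbelian 2 (wOf K) :=
  isElementaryAbelian_mono (isElementaryAbelian_omegaCenterOf _) (wOf_le_omega K)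

lemma core_centralizes_wOf : pCoreOf 2 K ≤ centralizer (wOf K : Set G) :=
  le_centralizer_iff.1 ((wOf_le_omega K).trans (omegaCenterOf_le_centralizer _))

lemma wOf_eq_commutator_zpowers {x : G} (hx : x ∈ K) (hxR : x ∉ pCoreOf 2 K) :
    wOf K = ⁅omegaCenterOf (pCoreOf 2 K), zpowers x⁆ := by
  refine le_antisymm (commutator_le.2 fun u hu k hk => ?_)
    (commutator_mono le_rfl (zpowers_le.2 hx))
  set U := omegaCenterOf (pCoreOf 2 K) with hU
  have hxn : zpowers x ≤ normalizer (U : Set G) := zpowers_le.2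
    (normalizer_le_normalizer_omegaCenterOf _ (CfsgLib.FFModules.le_normalizer_pCoreOf K hx))
  rw [← comp_sup_eq hK hx hxR] at hk
  have hxR' : zpowers x ≤ normalizer (pCoreOf 2 K : Set G) :=
    zpowers_le.2 (CfsgLib.FFModules.le_normalizer_pCoreOf K hx)
  rw [← SetLike.mem_coe, coe_mul_of_right_le_normalizer_left _ _ hxR'] at hk
  obtain ⟨r, hr, y, hy, rfl⟩ := Set.mem_mul.1 hk
  have hyU : y * u⁻¹ * y⁻¹ ∈ U := conj_mem_of_mem_normalizer (hxn hy) (inv_mem hu)
  have hm : u * (y * u⁻¹ * y⁻¹) ∈ U := mul_mem hu hyU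
  have hcu : r * u = u * r := ((omegaCenterOf_le_centralizer _ hu) r hr)
  have hcm : r * (y * u⁻¹ * y⁻¹) = (y * u⁻¹ * y⁻¹) * r := omegaCenterOf_le_centralizer _ hyU r hr
  have e : ⁅u, r * y⁆ = ⁅u, y⁆ := by
    calc ⁅u, r * y⁆ = u * r * (y * u⁻¹ * y⁻¹) * r⁻¹ := by rw [commutatorElement_def]; group
      _ = u * (r * (y * u⁻¹ * y⁻¹)) * r⁻¹ := by group
      _ = u * (y * u⁻¹ * y⁻¹) := by rw [hcm]; group
      _ = ⁅u, y⁆ := by rw [commutatorElement_def]; group
  rw [e]
  exact commutator_mem_commutator hu hy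

lemma wOf_fpf {x w : G} (hx : x ∈ K) (hxR : x ∉ pCoreOf 2 K) (hxo : Odd (orderOf x))
    (hw : w ∈ wOf K) (hc : x * w = w * x) : w = 1 := by
  haveI : IsMulCommutative ↥(omegaCenterOf (pCoreOf 2 K)) :=
    (isElementaryAbelian_omegaCenterOf _).1
  have h := CfsgLib.CoprimeAction.inf_commutator_eq_bot (A := zpowers x)
    (V := omegaCenterOf (pCoreOf 2 K))
    (zpowers_le.2 (normalizer_le_normalizer_omegaCenterOf _
      (CfsgLib.FFModules.le_normalizer_pCoreOf K hx))) ?_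
  · rw [← mem_bot, ← h]
    refine ⟨⟨wOf_le_omega K hw, mem_centralizer_iff.2 fun y hy => ?_⟩,
      (wOf_eq_commutator_zpowers hK hx hxR) ▸ hw⟩
    obtain ⟨k, rfl⟩ := mem_zpowers_iff.1 hy
    exact ((show Commute x w from hc).zpow_left k).eq
  · obtain ⟨k, hk⟩ := IsPGroup.iff_card.1
      (isPGroup_of_isElementaryAbelian (isElementaryAbelian_omegaCenterOf (pCoreOf 2 K)))
    rw [Nat.card_zpowers, hk]
    exact ((Nat.coprime_two_right).2 hxo).pow_right k

lemma centralizer_inf_comp : K ⊓ centralizer (wOf K : Set G) = pCoreOf 2 K := by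
  refine le_antisymm (fun k hk => ?_)
    (le_inf (CfsgLib.FFModules.pCoreOf_le K) (core_centralizes_wOf hK))
  by_contra hkR
  obtain ⟨x, hx, hxR, hxo⟩ := comp_exists_odd hK
  have hxC : x ∈ centralizer (wOf K : Set G) :=
    (sup_le (core_centralizes_wOf hK) (zpowers_le.2 hk.2)) ((comp_sup_eq hK hk.1 hkR).symm ▸ hx)
  have hbot : wOf K = ⊥ := (eq_bot_iff_forall _).2 fun w hw =>
    wOf_fpf hK hx hxR hxo hw (mem_centralizer_iff.1 hxC w hw).symm
  have := wOf_card hK
  rw [hbot, card_bot] at this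
  omega

/-- `C_{K J(T)}(W_K)`. -/
lemma comp_kernel (hT : IsPGroup 2 T) :
    IsPGroup 2 ↥((K ⊔ thompsonSubgroupOf 2 T) ⊓ centralizer (wOf K : Set G)) ∧
      (K ⊔ thompsonSubgroupOf 2 T) ⊓ centralizer (wOf K : Set G) ≤
        pCoreOf 2 K ⊔ thompsonSubgroupOf 2 T ∧
      K ⊔ thompsonSubgroupOf 2 T ≤
        normalizer (((K ⊔ thompsonSubgroupOf 2 T) ⊓ centralizer (wOf K : Set G) : Subgroup G) : Set G) := by
  set J := thompsonSubgroupOf 2 T with hJ
  set C := (K ⊔ J) ⊓ centralizer (wOf K : Set G) with hC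
  have hYN : K ⊔ J ≤ normalizer (K : Set G) := sup_le le_normalizer (comp_le_normalizer hK)
  have hn : K ⊔ J ≤ normalizer (C : Set G) := fun g hg => by
    refine mem_normalizer_of_forall fun c hc =>
      ⟨(show g * c * g⁻¹ ∈ K ⊔ J from mul_mem (mul_mem hg hc.1) (inv_mem hg)), ?_⟩
    refine mem_centralizer_iff.2 fun w hw => ?_
    have hw' := conj_inv_mem_of_mem_normalizer (normalizer_le_normalizer_wOf K (hYN hg)) hw
    calc w * (g * c * g⁻¹) = g * ((g⁻¹ * w * g) * c) * g⁻¹ := by group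
      _ = g * (c * (g⁻¹ * w * g)) * g⁻¹ := by rw [mem_centralizer_iff.1 hc.2 _ hw']
      _ = g * c * g⁻¹ * w := by group
  have hsyl := comp_isSylow hK hT
  have hp : IsPGroup 2 ↥C := by
    have hCK : C ⊓ K = pCoreOf 2 K := by
      rw [hC, inf_assoc, inf_comm (centralizer _), centralizer_inf_comp hK]
      exact inf_eq_right.2 ((CfsgLib.FFModules.pCoreOf_le K).trans le_sup_left)
    have h1 := card_sup_mul_inf (show C ≤ normalizer (K : Set G) from inf_le_left.trans hYN)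
    rw [hCK, ← card_mul_relIndex' (CfsgLib.FFModules.pCoreOf_le K (G := G) (p := 2)), hK.2.2.1,
      ← mul_assoc, mul_comm _ (3 : ℕ), mul_comm (Nat.card ↥C), ← mul_assoc] at h1
    have h2 : Nat.card ↥(C ⊔ K) = 3 * Nat.card ↥C :=
      Nat.eq_of_mul_eq_mul_right (Nat.card_pos (α := ↥(pCoreOf 2 K))) (h1.trans (by ring))
    obtain ⟨k, hk⟩ := IsPGroup.iff_card.1 hsyl.2.1
    have h3 : 3 * Nat.card ↥C ∣ Nat.card ↥(pCoreOf 2 K ⊔ J) * 3 := by
      rw [← h2]
      refine (card_dvd_of_le (sup_le inf_le_left le_sup_left)).trans ?_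
      rw [← card_mul_relIndex' hsyl.1]
      refine mul_dvd_mul_left _ ?_
      have hRJK : (pCoreOf 2 K ⊔ J) ⊔ K = K ⊔ J :=
        le_antisymm (sup_le hsyl.1 le_sup_left) (sup_le le_sup_right (le_sup_right.trans le_sup_left))
      have e := relIndex_sup_of_le_normalizer
        (show pCoreOf 2 K ⊔ J ≤ normalizer (K : Set G) from hsyl.1.trans hYN)
      rw [hRJK] at e
      rw [e]
      have := hK.2.2.1
      rw [← this]
      exact relIndex_dvd_of_le_left K (le_inf le_sup_left (CfsgLib.FFModules.pCoreOf_le K))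
    rw [mul_comm, hk] at h3
    obtain ⟨i, -, hi⟩ :=
      (Nat.dvd_prime_pow Nat.prime_two).1 ((Nat.mul_dvd_mul_iff_right three_pos).1 h3)
    exact IsPGroup.iff_card.2 ⟨i, hi⟩
  exact ⟨hp, le_of_normal_of_isSylowTwoIn hsyl inf_le_left hp (hsyl.1.trans hn), hn⟩

/-- The four-group `W_K` meets the largest elementary abelian subgroups in `⟨w⟩`. -/
theorem comp_max (hT : IsPGroup 2 T) :
    ∃ w ∈ wOf K, w ≠ 1 ∧ (∀ j ∈ thompsonSubgroupOf 2 T, j * w = w * j) ∧
      w ∈ thompsonSubgroupOf 2 T ∧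
      (∀ j ∈ thompsonSubgroupOf 2 T, ∀ v ∈ wOf K, j * v * j⁻¹ = v ∨ j * v * j⁻¹ = v * w) ∧
      (∃ A, IsMaxEA 2 T A ∧ ¬ A ≤ centralizer (wOf K : Set G)) ∧
      ∀ A, IsMaxEA 2 T A → ¬ A ≤ centralizer (wOf K : Set G) →
        (∀ v ∈ wOf K, v ∈ A → v = 1 ∨ v = w) ∧ w ∈ A ∧
        (A ⊓ centralizer (wOf K : Set G)).relIndex A = 2 ∧
        IsMaxEA 2 (pCoreOf 2 K ⊔ thompsonSubgroupOf 2 T)
          ((A ⊓ centralizer (wOf K : Set G)) ⊔ wOf K) := by
  set J := thompsonSubgroupOf 2 T with hJ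
  set C := centralizer (wOf K : Set G) with hC
  have hsyl := comp_isSylow hK hT
  have hW4 := wOf_card hK
  have hW2 := wOf_sq hK
  have hnW : pCoreOf 2 K ⊔ J ≤ normalizer (wOf K : Set G) :=
    hsyl.1.trans ((sup_le le_normalizer (comp_le_normalizer hK)).trans
      (normalizer_le_normalizer_wOf K))
  obtain ⟨w, hw, hw1, hwfix, hwmove⟩ := exists_fixed_four hW4 hW2 hsyl.2.1 hnW
  have hex : ∃ A, IsMaxEA 2 T A ∧ ¬ A ≤ C := by
    by_contra! hall
    have hJC : J ≤ C := thompsonSubgroupOf_le_iff.2 hall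
    obtain ⟨x, hx, hxR, -⟩ := comp_exists_odd hK
    refine hxR ((centralizer_inf_comp hK).le ⟨hx, ?_⟩)
    have hle : ⁅K, J⁆ ≤ C := commutator_le.2 fun k hk j hj => by
      have h1 : k * j * k⁻¹ ∈ C :=
        (conj_mem_of_mem_normalizer ((comp_kernel hK hT).2.2 (le_sup_left (b := J) hk))
          (⟨le_sup_right (a := K) hj, hJC hj⟩ :
            j ∈ (K ⊔ J) ⊓ centralizer (wOf K : Set G))).2
      rw [commutatorElement_def]
      exact mul_mem h1 (inv_mem (hJC hj))
    rw [hK.2.1] at hle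
    exact hle hx
  have hWRJ : wOf K ≤ pCoreOf 2 K ⊔ J := (wOf_le_core K).trans le_sup_left
  have hmaxiff : ∀ {A : Subgroup G}, IsMaxEA 2 (pCoreOf 2 K ⊔ J) A ↔ IsMaxEA 2 T A :=
    isMaxEA_iff_of_eq (comp_thompson hK hT)
  have hmain : ∀ A, IsMaxEA 2 T A → ¬ A ≤ C →
      (∀ v ∈ wOf K, v ∈ A → v = 1 ∨ v = w) ∧ w ∈ A ∧ (A ⊓ C).relIndex A = 2 ∧
        IsMaxEA 2 (pCoreOf 2 K ⊔ J) ((A ⊓ C) ⊔ wOf K) := by
    intro A hA hAC
    have hA' := hmaxiff.2 hA
    obtain ⟨a, haA, haC⟩ := SetLike.not_le_iff_exists.1 hAC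
    obtain ⟨v, hv, hva⟩ : ∃ v ∈ wOf K, a * v * a⁻¹ ≠ v := by
      by_contra! h
      exact haC (mem_centralizer_iff.2 fun v hv => (mul_inv_eq_iff_eq_mul.1 (h v hv)).symm)
    have hav : a * v * a⁻¹ = v * w := (hwmove a (hA'.le haA) v hv).resolve_left hva
    have hv1 : v ≠ 1 := fun e => hva (by simp [e])
    have hvw : v ≠ w := fun e => hva (by rw [e, hwfix a (hA'.le haA)])
    have hmeet : ∀ u ∈ wOf K, u ∈ A → u = 1 ∨ u = w := by
      intro u hu huA
      have hfix : a * u * a⁻¹ = u := by rw [commute_of_mem hA.elem haA huA, mul_inv_cancel_right]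
      rcases four_cases hW4 hW2 hw hv hw1 hv1 hvw hu with h | h | h | h
      · exact .inl h
      · exact .inr h
      · exact absurd (h ▸ hfix) hva
      · exfalso
        rw [h, show a * (v * w) * a⁻¹ = (a * v * a⁻¹) * (a * w * a⁻¹) by group,
          hwfix a (hA'.le haA)] at hfix
        exact hva (mul_right_cancel hfix)
    have hidx : (A ⊓ C).relIndex A = 2 := by
      rw [relIndex, index_eq_two_iff]
      refine ⟨⟨a, haA⟩, fun b => ?_⟩
      simp only [mem_subgroupOf, Subgroup.coe_mul]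
      rw [xor_iff_or_and_not_and]
      have key : (b : G) ∈ C ∨ (b : G) * a ∈ C := by
        by_cases hb : (b : G) ∈ C
        · exact .inl hb
        refine .inr (mem_centralizer_iff.2 fun u hu => ?_)
        obtain ⟨z, hz, hzb⟩ : ∃ z ∈ wOf K, (b : G) * z * (b : G)⁻¹ ≠ z := by
          by_contra! h
          exact hb (mem_centralizer_iff.2 fun z hz => (mul_inv_eq_iff_eq_mul.1 (h z hz)).symm)
        have hbv : (b : G) * v * (b : G)⁻¹ = v * w := by
          rcases hwmove _ (hA'.le b.2) v hv with h | h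
          · exfalso
            rcases four_cases hW4 hW2 hw hv hw1 hv1 hvw hz with e | e | e | e
            · exact hzb (by simp [e])
            · exact hzb (by rw [e, hwfix _ (hA'.le b.2)])
            · exact hzb (by rw [e, h])
            · refine hzb ?_
              rw [e, show (b : G) * (v * w) * (b : G)⁻¹ =
                ((b : G) * v * (b : G)⁻¹) * ((b : G) * w * (b : G)⁻¹) by group, h,
                hwfix _ (hA'.le b.2)]
          · exact h
        have hfw : (b : G) * a * w * ((b : G) * a)⁻¹ = w := by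
          rw [show (b : G) * a * w * ((b : G) * a)⁻¹ = (b : G) * (a * w * a⁻¹) * (b : G)⁻¹ by group,
            hwfix a (hA'.le haA), hwfix _ (hA'.le b.2)]
        have hfv : (b : G) * a * v * ((b : G) * a)⁻¹ = v := by
          rw [show (b : G) * a * v * ((b : G) * a)⁻¹ = (b : G) * (a * v * a⁻¹) * (b : G)⁻¹ by group,
            hav, show (b : G) * (v * w) * (b : G)⁻¹ =
              ((b : G) * v * (b : G)⁻¹) * ((b : G) * w * (b : G)⁻¹) by group,
            hbv, hwfix _ (hA'.le b.2), mul_assoc, hW2 w hw, mul_one]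
        refine (mul_inv_eq_iff_eq_mul.1 ?_).symm
        rcases four_cases hW4 hW2 hw hv hw1 hv1 hvw hu with e | e | e | e
        · simp [e]
        · rw [e]; exact hfw
        · rw [e]; exact hfv
        · rw [e, show (b : G) * a * (v * w) * ((b : G) * a)⁻¹ =
            ((b : G) * a * v * ((b : G) * a)⁻¹) * ((b : G) * a * w * ((b : G) * a)⁻¹) by group,
            hfv, hfw]
      refine ⟨?_, fun ⟨h1, h2⟩ => haC ?_⟩
      · rcases key with h | h
        · exact .inr ⟨b.2, h⟩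
        · exact .inl ⟨mul_mem b.2 haA, h⟩
      · have := mul_mem (inv_mem (show (b : G) ∈ C from h2.2)) (show (b : G) * a ∈ C from h1.2)
        rwa [inv_mul_cancel_left] at this
    have hAc : A ⊓ C ≤ centralizer (wOf K : Set G) := inf_le_right
    have hcard := card_sup_mul_inf (A := A ⊓ C) (B := wOf K)
      (hAc.trans (centralizer_le_normalizer _))
    rw [hW4] at hcard
    have hhalf : Nat.card ↥(A ⊓ C) * 2 = Nat.card A := by
      rw [← hidx]; exact card_mul_relIndex' inf_le_left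
    have hel : IsElementaryAbelian 2 ((A ⊓ C) ⊔ wOf K : Subgroup G) :=
      isElementaryAbelian_sup (isElementaryAbelian_mono hA.elem inf_le_left) (wOf_elem hK) hAc
    have hle' : (A ⊓ C) ⊔ wOf K ≤ pCoreOf 2 K ⊔ J := sup_le (inf_le_left.trans hA'.le) hWRJ
    have hcle := hA'.card_le _ hle' hel
    have hzw : Nat.card ↥(zpowers w) = 2 := by
      rw [Nat.card_zpowers, orderOf_eq_prime (by rw [pow_two, hW2 w hw]) hw1]
    have hmle : (A ⊓ C) ⊓ wOf K ≤ zpowers w := fun u hu => by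
      rcases hmeet u hu.2 hu.1.1 with rfl | rfl
      · exact one_mem _
      · exact mem_zpowers _
    have hm2 : Nat.card ↥((A ⊓ C) ⊓ wOf K) = 2 := by
      have h1 := card_dvd_of_le hmle
      rw [hzw] at h1
      rcases (Nat.dvd_prime Nat.prime_two).1 h1 with h | h
      · exfalso
        rw [h, mul_one] at hcard
        have := Nat.card_pos (α := ↥(A ⊓ C))
        omega
      · exact h
    have hwA : w ∈ A :=
      ((eq_of_le_of_card_ge hmle (by rw [hm2, hzw])).symm ▸ mem_zpowers w :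
        w ∈ (A ⊓ C) ⊓ wOf K).1.1
    rw [hm2] at hcard
    exact ⟨hmeet, hwA, hidx, hle', hel,
      fun B hB hBe => (hA'.card_le B hB hBe).trans (by omega)⟩
  obtain ⟨A, hA, hAC⟩ := hex
  exact ⟨w, hw, hw1,
    fun j hj => mul_inv_eq_iff_eq_mul.1 (hwfix j (le_sup_right (a := pCoreOf 2 K) hj)),
    le_thompsonSubgroupOf hA (hmain A hA hAC).2.1,
    fun j hj v hv => hwmove j (le_sup_right (a := pCoreOf 2 K) hj) v hv, ⟨A, hA, hAC⟩, hmain⟩

/-- **The centre of `J(T)` and a component.** -/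
theorem comp_center (hT : IsPGroup 2 T) :
    ∃ w ∈ wOf K, w ≠ 1 ∧ w ∈ omegaCenterOf (thompsonSubgroupOf 2 T) ∧
      (∀ z ∈ omegaCenterOf (thompsonSubgroupOf 2 T), z ∈ wOf K → z = 1 ∨ z = w) ∧
      ∀ z ∈ omegaCenterOf (thompsonSubgroupOf 2 T), ∃ u ∈ omegaCenterOf (thompsonSubgroupOf 2 T),
        (∀ y ∈ K ⊔ thompsonSubgroupOf 2 T, y * u = u * y) ∧ (z = u ∨ z = u * w) := by
  obtain ⟨w, hw, hw1, hwJ, hwJmem, hmove, ⟨A, hA, hAC⟩, hmain⟩ := comp_max hK hT
  set J := thompsonSubgroupOf 2 T with hJ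
  set Z₀ := omegaCenterOf J with hZ₀def
  set Y := K ⊔ J with hY
  set R := pCoreOf 2 K with hR
  have hZ₀e := isElementaryAbelian_omegaCenterOf J
  have hwZ : w ∈ Z₀ := mem_omegaOne ⟨hwJmem, mem_centralizer_iff.2 hwJ⟩
    (by rw [pow_two, wOf_sq hK w hw])
  have hZA : ∀ B, IsMaxEA 2 T B → Z₀ ≤ B := fun B hB => omegaOne_centerThompsonOf_le hB
  obtain ⟨hAmeet, -, -, hA'max⟩ := hmain A hA hAC
  have hmeet : ∀ z ∈ Z₀, z ∈ wOf K → z = 1 ∨ z = w := fun z hz hzW => hAmeet z hzW (hZA A hA hz)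
  refine ⟨w, hw, hw1, hwZ, hmeet, ?_⟩
  obtain ⟨hRb2, hRble, hRbn⟩ := comp_kernel hK hT
  set Rb := Y ⊓ centralizer (wOf K : Set G) with hRbdef
  have hmaxiff : ∀ {B : Subgroup G}, IsMaxEA 2 (R ⊔ J) B ↔ IsMaxEA 2 T B :=
    isMaxEA_iff_of_eq (comp_thompson hK hT)
  have hWR : wOf K ≤ R := wOf_le_core K
  have hRKY : R ≤ Y := (CfsgLib.FFModules.pCoreOf_le K).trans le_sup_left
  have hWY : wOf K ≤ Y := hWR.trans hRKY
  set A₁ := (A ⊓ centralizer (wOf K : Set G)) ⊔ wOf K with hA₁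
  have hA₁c : A₁ ≤ centralizer (wOf K : Set G) :=
    sup_le inf_le_right (hWR.trans (core_centralizes_wOf hK))
  have hA₁Rb : A₁ ≤ Rb :=
    le_inf (sup_le (inf_le_left.trans ((le_thompsonSubgroupOf hA).trans le_sup_right)) hWY) hA₁c
  have hmaxRb : IsMaxEA 2 Rb A₁ :=
    ⟨hA₁Rb, hA'max.elem, fun B hB hBe => hA'max.card_le B (hB.trans hRble) hBe⟩
  have hRbmax : ∀ {B}, IsMaxEA 2 Rb B → IsMaxEA 2 T B := fun {B} hB =>
    hmaxiff.1 ⟨hB.le.trans hRble, hB.elem,
      fun D hD hDe => (hA'max.card_le D hD hDe).trans (hB.card_le A₁ hA₁Rb hmaxRb.elem)⟩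
  set Z₁ := omegaOne 2 (centerThompsonOf 2 Rb) with hZ₁
  have hZ₁e : IsElementaryAbelian 2 Z₁ := isElementaryAbelian_omegaOne_centerThompsonOf 2 Rb
  have hJRb : thompsonSubgroupOf 2 Rb ≤ J :=
    thompsonSubgroupOf_le_iff.2 fun B hB => le_thompsonSubgroupOf (hRbmax hB)
  have hWZ₁ : wOf K ≤ Z₁ := fun v hv => omegaOne_inf_centralizer_le_thompsonSubgroupOf Rb
    (mem_omegaOne ⟨⟨hWY hv, (hWR.trans (core_centralizes_wOf hK)) hv⟩,
      mem_centralizer_iff.2 fun y hy =>
        (mem_centralizer_iff.1 (thompsonSubgroupOf_le 2 Rb hy).2 v hv).symm⟩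
      (by rw [pow_two, wOf_sq hK v hv]))
  have hZ₀Z₁ : Z₀ ≤ Z₁ := fun z hz => omegaOne_inf_centralizer_le_thompsonSubgroupOf Rb
    (mem_omegaOne ⟨hA₁Rb (hZA _ (hmaxiff.1 hA'max) hz),
      centralizer_le hJRb (omegaCenterOf_le_centralizer J hz)⟩
      (hZ₀e.2 z hz))
  have hZ₁Rb : Z₁ ≤ Rb :=
    (omegaOne_le 2 _).trans (inf_le_left.trans (thompsonSubgroupOf_le 2 Rb))
  have hZ₁n : Y ≤ normalizer (Z₁ : Set G) := fun g hg => by
    have hg' := hRbn hg
    rw [mem_normalizer_iff_map_conj_eq] at hg' ⊢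
    rw [hZ₁, map_omegaOne (MulAut.conj g).injective, centerThompsonOf_def,
      map_inf_centralizer (MulAut.conj g).injective,
      map_thompsonSubgroupOf (MulAut.conj g).injective, hg']
  have hWn : Y ≤ normalizer (wOf K : Set G) :=
    (sup_le le_normalizer (comp_le_normalizer hK)).trans (normalizer_le_normalizer_wOf K)
  have hcW : ∀ {p q : G}, p ∈ Z₁ → q ∈ Z₁ → p * q = q * p := fun hp hq =>
    commute_of_mem hZ₁e hp hq
  -- `Y` centralises `Z₁` modulo `W`
  let D : Subgroup G :=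
    { carrier := {y | y ∈ Y ∧ ∀ z ∈ Z₁, y * z * y⁻¹ * z⁻¹ ∈ wOf K}
      one_mem' := ⟨one_mem _, fun z _ => by simp⟩
      mul_mem' := fun {y y'} hy hy' => ⟨mul_mem hy.1 hy'.1, fun z hz => by
        have hz' := conj_mem_of_mem_normalizer (hZ₁n hy'.1) hz
        have e : y * y' * z * (y * y')⁻¹ * z⁻¹ =
            (y * (y' * z * y'⁻¹) * y⁻¹ * (y' * z * y'⁻¹)⁻¹) * (y' * z * y'⁻¹ * z⁻¹) := by group
        rw [e]
        exact mul_mem (hy.2 _ hz') (hy'.2 z hz)⟩
      inv_mem' := fun {y} hy => ⟨inv_mem hy.1, fun z hz => by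
        have hz' := conj_inv_mem_of_mem_normalizer (hZ₁n hy.1) hz
        have h := inv_mem (hy.2 _ hz')
        have e : y⁻¹ * z * y⁻¹⁻¹ * z⁻¹ =
            (y * (y⁻¹ * z * y) * y⁻¹ * (y⁻¹ * z * y)⁻¹)⁻¹ := by group
        rwa [e]⟩ }
  have hJD : J ≤ D := thompsonSubgroupOf_le_iff.2 fun B hB => by
    intro b hb
    refine ⟨le_sup_right (a := K) (le_thompsonSubgroupOf hB hb), fun z hz => ?_⟩
    by_cases hBC : B ≤ centralizer (wOf K : Set G)
    · have hBRb : B ≤ Rb := le_inf ((le_thompsonSubgroupOf hB).trans le_sup_right) hBC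
      have hBm : IsMaxEA 2 Rb B :=
        ⟨hBRb, hB.elem, fun D hD hDe => (hmaxiff.2 hB).card_le D (hD.trans hRble) hDe⟩
      have hzb := mem_centralizer_iff.1 (omegaOne_le 2 _ hz).2 b (le_thompsonSubgroupOf hBm hb)
      rw [hzb]; simp
    · obtain ⟨hBmeet, -, hBidx, hB'max⟩ := hmain B hB hBC
      set B₀ := B ⊓ centralizer (wOf K : Set G) with hB₀
      have hB'Rb : B₀ ⊔ wOf K ≤ Rb := le_inf
        (sup_le (inf_le_left.trans ((le_thompsonSubgroupOf hB).trans le_sup_right)) hWY)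
        (sup_le inf_le_right (hWR.trans (core_centralizes_wOf hK)))
      have hB'm : IsMaxEA 2 Rb (B₀ ⊔ wOf K) :=
        ⟨hB'Rb, hB'max.elem, fun D hD hDe => hB'max.card_le D (hD.trans hRble) hDe⟩
      have hc : B₀ ≤ centralizer (Z₁ : Set G) := le_centralizer_iff.1
        (((omegaOne_le 2 _).trans inf_le_right).trans
          (centralizer_le (show B₀ ≤ thompsonSubgroupOf 2 Rb from
            le_sup_left.trans (le_thompsonSubgroupOf hB'm))))
      have hle := card_sup_le (hmaxiff.2 hB)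
        (inf_le_left.trans (hmaxiff.2 hB).le) (isElementaryAbelian_mono hB.elem inf_le_left)
        (hZ₁Rb.trans hRble) hZ₁e hc
      have hhalf : Nat.card ↥B₀ * 2 = Nat.card B := by
        rw [← hBidx]; exact card_mul_relIndex' inf_le_left
      -- `Z₁ = (Z₁ ⊓ B) W`
      have hWB : Nat.card ↥(wOf K ⊓ (Z₁ ⊓ B)) ≤ 2 := by
        have hsub : wOf K ⊓ (Z₁ ⊓ B) ≤ zpowers w := fun u hu => by
          rcases hBmeet u hu.1 hu.2.2 with rfl | rfl
          · exact one_mem _
          · exact mem_zpowers _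
        refine (Nat.le_of_dvd Nat.card_pos (card_dvd_of_le hsub)).trans_eq ?_
        rw [Nat.card_zpowers, orderOf_eq_prime (by rw [pow_two, wOf_sq hK w hw]) hw1]
      have hE : Nat.card Z₁ ≤ 2 * Nat.card ↥(Z₁ ⊓ B) := by
        have h1 : Nat.card ↥(B₀ ⊓ Z₁) ≤ Nat.card ↥(Z₁ ⊓ B) := Nat.le_of_dvd Nat.card_pos
          (card_dvd_of_le (le_inf inf_le_right (inf_le_left.trans inf_le_left)))
        have h3 : Nat.card ↥B₀ * Nat.card Z₁ ≤
            Nat.card ↥B₀ * (2 * Nat.card ↥(Z₁ ⊓ B)) := by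
          refine hle.trans ?_
          rw [← hhalf, mul_assoc]
          exact Nat.mul_le_mul_left _ (Nat.mul_le_mul_left _ h1)
        exact Nat.le_of_mul_le_mul_left h3 (Nat.card_pos (α := ↥B₀))
      have hsup : wOf K ⊔ (Z₁ ⊓ B) = Z₁ := by
        refine eq_of_le_of_card_ge (sup_le hWZ₁ inf_le_left) (Nat.le_of_mul_le_mul_right ?_
          (Nat.card_pos (α := ↥(wOf K ⊓ (Z₁ ⊓ B)))))
        rw [card_sup_mul_inf (hWZ₁.trans ((isElementaryAbelian_le_centralizer hZ₁e).trans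
          ((centralizer_le inf_le_left).trans (centralizer_le_normalizer _)))), wOf_card hK]
        calc Nat.card Z₁ * Nat.card ↥(wOf K ⊓ (Z₁ ⊓ B)) ≤ (2 * Nat.card ↥(Z₁ ⊓ B)) * 2 :=
              Nat.mul_le_mul hE hWB
          _ = 4 * Nat.card ↥(Z₁ ⊓ B) := by ring
      rw [← hsup, ← SetLike.mem_coe, coe_mul_of_left_le_normalizer_right _ _
        (hWZ₁.trans ((isElementaryAbelian_le_centralizer hZ₁e).trans
          ((centralizer_le inf_le_left).trans (centralizer_le_normalizer _))))] at hz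
      obtain ⟨v, hv, e, he, rfl⟩ := Set.mem_mul.1 hz
      have hbe : b * e = e * b := commute_of_mem hB.elem hb he.2
      have : b * (v * e) * b⁻¹ * (v * e)⁻¹ = (b * v * b⁻¹) * v⁻¹ := by
        calc b * (v * e) * b⁻¹ * (v * e)⁻¹ = b * v * (e * b⁻¹) * e⁻¹ * v⁻¹ := by group
          _ = b * v * (b⁻¹ * e) * e⁻¹ * v⁻¹ := by
            rw [show e * b⁻¹ = b⁻¹ * e from (Commute.inv_left (show Commute b e from hbe)).eq.symm]
          _ = b * v * b⁻¹ * v⁻¹ := by group
      rw [this]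
      exact mul_mem (conj_mem_of_mem_normalizer
        (hWn (le_sup_right (a := K) (le_thompsonSubgroupOf hB hb))) hv) (inv_mem hv)
  have hDn : Y ≤ normalizer (D : Set G) := fun g hg => by
    refine mem_normalizer_of_forall fun y hy => ⟨mul_mem (mul_mem hg hy.1) (inv_mem hg), fun z hz => ?_⟩
    have hz' := conj_inv_mem_of_mem_normalizer (hZ₁n hg) hz
    have e : g * y * g⁻¹ * z * (g * y * g⁻¹)⁻¹ * z⁻¹ =
        g * (y * (g⁻¹ * z * g) * y⁻¹ * (g⁻¹ * z * g)⁻¹) * g⁻¹ := by group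
    rw [e]
    exact conj_mem_of_mem_normalizer (hWn hg) (hy.2 _ hz')
  have hKD : K ≤ D := by
    conv_lhs => rw [← hK.2.1]
    refine commutator_le.2 fun k hk j hj => ?_
    rw [commutatorElement_def]
    exact mul_mem (conj_mem_of_mem_normalizer (hDn (le_sup_left (b := J) hk)) (hJD hj))
      (inv_mem (hJD hj))
  obtain ⟨x, hx, hxR, hxo⟩ := comp_exists_odd hK
  obtain ⟨v, hvW, hv1, hvw, hav⟩ : ∃ v ∈ wOf K, v ≠ 1 ∧ v ≠ w ∧ True := by
    by_contra! h
    have hle : wOf K ≤ zpowers w := fun v hv => by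
      by_cases h1 : v = 1
      · rw [h1]; exact one_mem _
      · by_cases h2 : v = w
        · rw [h2]; exact mem_zpowers _
        · exact (h v hv h1 h2).elim
    have h' := card_dvd_of_le hle
    rw [wOf_card hK, Nat.card_zpowers, orderOf_eq_prime (by rw [pow_two, wOf_sq hK w hw]) hw1] at h'
    exact absurd (Nat.le_of_dvd (by norm_num) h') (by norm_num)
  intro z hz
  -- `R` centralises `z`
  have hRnJ : R ≤ normalizer (J : Set G) := by
    have h := normalizer_le_normalizer_thompsonSubgroupOf 2 (R ⊔ J)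
    rw [comp_thompson hK hT] at h
    exact le_sup_left.trans (le_normalizer.trans h)
  have hRcomm : ∀ r ∈ R, r * z * r⁻¹ = z := by
    intro r hr
    have hmem : ∀ s ∈ R, s * z * s⁻¹ * z⁻¹ = 1 ∨ s * z * s⁻¹ * z⁻¹ = w := by
      intro s hs
      refine hmeet _ (mul_mem (conj_mem_of_mem_normalizer
        (normalizer_le_normalizer_omegaCenterOf J (hRnJ hs)) hz) (inv_mem hz))
        ((hKD (CfsgLib.FFModules.pCoreOf_le K hs)).2 z (hZ₀Z₁ hz))
    rcases hmem r hr with h | h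
    · exact mul_inv_eq_one.1 h
    exfalso
    set p := x⁻¹ * z * x * z⁻¹ with hp
    have hpW : p ∈ wOf K := by
      have := (hKD (inv_mem hx)).2 z (hZ₀Z₁ hz)
      simpa [hp] using this
    set r' := x * r * x⁻¹ with hr'
    have hr'R : r' ∈ R :=
      conj_mem_of_mem_normalizer (CfsgLib.FFModules.le_normalizer_pCoreOf K hx) hr
    have hrp : r * p * r⁻¹ = p := by
      rw [← mem_centralizer_iff.1 (core_centralizes_wOf hK hr) p hpW, mul_inv_cancel_right]
    have hxz : x⁻¹ * z * x = p * z := by rw [hp]; group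
    have e : r' * z * r'⁻¹ * z⁻¹ = x * w * x⁻¹ := by
      have hrz : r * z * r⁻¹ = w * z := by rw [← h]; group
      calc r' * z * r'⁻¹ * z⁻¹ = x * (r * (x⁻¹ * z * x) * r⁻¹) * x⁻¹ * z⁻¹ := by
            rw [hr']; group
        _ = x * ((r * p * r⁻¹) * (r * z * r⁻¹)) * x⁻¹ * z⁻¹ := by rw [hxz]; group
        _ = x * ((p * w) * z) * x⁻¹ * z⁻¹ := by rw [hrp, hrz]; group
        _ = x * ((w * p) * z) * x⁻¹ * z⁻¹ := by rw [hcW (hWZ₁ hpW) (hWZ₁ hw)]
        _ = x * w * (x⁻¹ * z * x) * x⁻¹ * z⁻¹ := by rw [hxz]; group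
        _ = x * w * x⁻¹ := by group
    rcases hmem r' hr'R with h' | h'
    · rw [e] at h'; exact hw1 (conj_eq_one_iff.1 h')
    · rw [e] at h'
      exact hw1 (wOf_fpf hK hx hxR hxo hw (mul_inv_eq_iff_eq_mul.1 h'))
  -- correct `z` by an element of `W`
  set q := x * z * x⁻¹ * z⁻¹ with hq
  have hqW : q ∈ wOf K := (hKD hx).2 z (hZ₀Z₁ hz)
  obtain ⟨p, hpW, hp⟩ : ∃ p ∈ wOf K, x * p * x⁻¹ * p⁻¹ = q := by
    haveI : Fintype ↥(wOf K) := Fintype.ofFinite _
    let φ : ↥(wOf K) → ↥(wOf K) := fun p => ⟨x * p * x⁻¹ * (p : G)⁻¹,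
      mul_mem (conj_mem_of_mem_normalizer (normalizer_le_normalizer_wOf K (le_normalizer hx)) p.2)
        (inv_mem p.2)⟩
    have hφ : Function.Injective φ := by
      rintro ⟨a, ha⟩ ⟨b, hb⟩ hab
      have hab' : x * a * x⁻¹ * a⁻¹ = x * b * x⁻¹ * b⁻¹ := congrArg Subtype.val hab
      refine Subtype.ext ?_
      have hba : b⁻¹ * a = 1 := by
        refine wOf_fpf hK hx hxR hxo (mul_mem (inv_mem hb) ha) (mul_inv_eq_iff_eq_mul.1 ?_)
        calc x * (b⁻¹ * a) * x⁻¹
            = (x * b * x⁻¹)⁻¹ * (x * a * x⁻¹ * a⁻¹) * a := by group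
          _ = (x * b * x⁻¹)⁻¹ * (x * b * x⁻¹ * b⁻¹) * a := by rw [hab']
          _ = b⁻¹ * a := by group
      exact (inv_mul_eq_one.1 hba).symm
    obtain ⟨⟨p, hp⟩, h⟩ := Finite.surjective_of_injective hφ ⟨q, hqW⟩
    exact ⟨p, hp, congrArg Subtype.val h⟩
  set u := z * p with hu
  have hpinv : p⁻¹ = p := inv_eq_of_mul_eq_one_right (wOf_sq hK p hpW)
  have hxu : x * u * x⁻¹ = u := by
    have h1 : x * z * x⁻¹ = q * z := by rw [hq]; group
    have h2 : x * p * x⁻¹ = q * p := by rw [← hp]; group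
    calc x * u * x⁻¹ = (x * z * x⁻¹) * (x * p * x⁻¹) := by rw [hu]; group
      _ = q * z * (q * p) := by rw [h1, h2]
      _ = (q * q) * (z * p) := by
        rw [mul_assoc q z, ← mul_assoc z q, hcW (hZ₀Z₁ hz) (hWZ₁ hqW)]; group
      _ = u := by rw [wOf_sq hK q hqW, one_mul, hu]
  have hKu : K ≤ centralizer ({u} : Set G) := by
    rw [← comp_sup_eq hK hx hxR]
    refine sup_le (fun r hr => mem_centralizer_singleton_iff.2 ?_) (zpowers_le.2 ?_)
    · refine mul_inv_eq_iff_eq_mul.1 ?_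
      calc r * u * r⁻¹ = (r * z * r⁻¹) * (r * p * r⁻¹) := by rw [hu]; group
        _ = u := by
          rw [hRcomm r hr, ← mem_centralizer_iff.1 (core_centralizes_wOf hK hr) p hpW,
            mul_inv_cancel_right, hu]
    · exact mem_centralizer_singleton_iff.2 (mul_inv_eq_iff_eq_mul.1 hxu)
  have hpw : p = 1 ∨ p = w := by
    obtain ⟨a, haA, haC⟩ := SetLike.not_le_iff_exists.1 hAC
    have haJ : a ∈ J := le_thompsonSubgroupOf hA haA
    have haz : a * z * a⁻¹ = z := by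
      rw [mem_centralizer_iff.1 (omegaCenterOf_le_centralizer J hz) a haJ, mul_inv_cancel_right]
    have hap : a * p * a⁻¹ = p := by
      set p' := a * p * a⁻¹ with hp'
      have hp'W : p' ∈ wOf K := conj_mem_of_mem_normalizer (hWn (le_sup_right (a := K) haJ)) hpW
      have hau : a * u * a⁻¹ = z * p' := by
        calc a * u * a⁻¹ = (a * z * a⁻¹) * (a * p * a⁻¹) := by rw [hu]; group
          _ = z * p' := by rw [haz]
      have hxau : x * (z * p') * x⁻¹ = z * p' := by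
        rw [← hau]
        have hk : a⁻¹ * x * a ∈ K := conj_inv_mem_of_mem_normalizer (comp_le_normalizer hK haJ) hx
        have hk' := mem_centralizer_singleton_iff.1 (hKu hk)
        calc x * (a * u * a⁻¹) * x⁻¹ = a * ((a⁻¹ * x * a) * u) * (a⁻¹ * x * a)⁻¹ * a⁻¹ := by group
          _ = a * (u * (a⁻¹ * x * a)) * (a⁻¹ * x * a)⁻¹ * a⁻¹ := by rw [hk']
          _ = a * u * a⁻¹ := by group
      have hfix : x * (p⁻¹ * p') = (p⁻¹ * p') * x := by
        refine mul_inv_eq_iff_eq_mul.1 ?_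
        calc x * (p⁻¹ * p') * x⁻¹ = (x * u * x⁻¹)⁻¹ * (x * (z * p') * x⁻¹) := by rw [hu]; group
          _ = p⁻¹ * p' := by rw [hxu, hxau, hu]; group
      have := wOf_fpf hK hx hxR hxo (mul_mem (inv_mem hpW) hp'W) hfix
      exact (inv_mul_eq_one.1 this).symm
    rcases four_cases (wOf_card hK) (wOf_sq hK) hw hvW hw1 hv1 hvw hpW with h | h | h | h
    · exact .inl h
    · exact .inr h
    all_goals
      exfalso
      have hmoves : ∀ t ∈ wOf K, a * t * a⁻¹ = t → t = 1 ∨ t = w := by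
        intro t ht hfix
        by_contra! hne
        refine haC (mem_centralizer_iff.2 fun s hs => (mul_inv_eq_iff_eq_mul.1 ?_).symm)
        have haw : a * w * a⁻¹ = w := by rw [hwJ a haJ, mul_inv_cancel_right]
        rcases four_cases (wOf_card hK) (wOf_sq hK) hw ht hw1 hne.1 hne.2 hs with e | e | e | e
        · simp [e]
        · rw [e, haw]
        · rw [e, hfix]
        · rw [e, show a * (t * w) * a⁻¹ = (a * t * a⁻¹) * (a * w * a⁻¹) by group, hfix, haw]
      rcases hmoves p hpW hap with e | e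
      · first
          | exact hv1 (h ▸ e)
          | exact hvw (by
              have h' : v * w = 1 := h ▸ e
              rw [← inv_eq_of_mul_eq_one_left h']
              exact inv_eq_of_mul_eq_one_right (wOf_sq hK w hw))
      · first
          | exact hvw (h ▸ e)
          | exact hv1 (mul_eq_right.1 (h ▸ e))
  have huZ : u ∈ Z₀ := by
    rcases hpw with h | h <;> rw [hu, h]
    · rwa [mul_one]
    · exact mul_mem hz hwZ
  refine ⟨u, huZ, fun y hy => ?_, ?_⟩
  · have hle : Y ≤ centralizer ({u} : Set G) := sup_le hKu fun j hj =>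
      mem_centralizer_singleton_iff.2 (mem_centralizer_iff.1 (omegaCenterOf_le_centralizer J huZ) j hj)
    exact mem_centralizer_singleton_iff.1 (hle hy)
  · rcases hpw with h | h
    · left; rw [hu, h, mul_one]
    · right; rw [hu, h, mul_assoc, wOf_sq hK w hw, mul_one]

end

end CfsgLib.JComponents
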