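import Cfsg.Agent.Lib.JComponents.Transvection
import Cfsg.Agent.Lib.NormalPComplement.Basic

/-!
Involutory lifts of transvections through a map with odd kernel that centralises all involutions:
the classes lift to generators of a normal elementary abelian 3-subgroup.
-/

set_option autoImplicit false

namespace CfsgLib.JComponents

variable {Lt X V : Type*} [Group Lt] [Group X] [CommGroup V] [MulDistribMulAction X V]

/-- Hypotheses on the map. -/
structure LiftSetting (V : Type*) [CommGroup V] {X Lt : Type*} [Group X] [Group Lt]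
    (F : Subgroup X) (π : Lt →* X) : Prop where
  setting : Setting V F
  surj : Function.Surjective π
  kerOdd : ∀ c, π c = 1 → Odd (orderOf c)
  kerComm : ∀ c, π c = 1 → ∀ t : Lt, t * t = 1 → Commute c t

/-- An involution mapping to a transvection with centre `w`. -/
def LTV (π : Lt →* X) (s : Lt) (w : V) : Prop := s * s = 1 ∧ IsTV (π s) w

/-- The lifts of a class. -/
def lcl (F : Subgroup X) (π : Lt →* X) (s : Lt) : Set Lt := {t | t * t = 1 ∧ π t ∈ cl F (π s)}

/-- The order three subgroup of a class. -/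
def lE (F : Subgroup X) (π : Lt →* X) (s : Lt) : Subgroup Lt :=
  Subgroup.closure {e | ∃ t ∈ lcl F π s, ∃ t' ∈ lcl F π s, e = t * t'}

/-- The subgroup of all classes. -/
def lP (F : Subgroup X) (π : Lt →* X) (V : Type*) [CommGroup V] [MulDistribMulAction X V] :
    Subgroup Lt :=
  Subgroup.closure {e | ∃ s, (∃ w : V, LTV π s w) ∧ e ∈ lE F π s}

variable {F : Subgroup X} {π : Lt →* X}

omit [MulDistribMulAction X V] in
lemma orderOf_eq_one_of_odd {c : Lt} (hc : Odd (orderOf c)) (h : c * c = 1) : c = 1 := by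
  have h1 : orderOf c ∣ 2 := orderOf_dvd_of_pow_eq_one (by rw [pow_two, h])
  rcases (Nat.dvd_prime Nat.prime_two).1 h1 with h' | h'
  · exact orderOf_eq_one_iff.1 h'
  · rw [h'] at hc; exact absurd hc (by decide)

omit [MulDistribMulAction X V] in
lemma inv_eq_of_sq {s : Lt} (h : s * s = 1) : s⁻¹ = s := inv_eq_of_mul_eq_one_right h

variable [FaithfulSMul X V] (hS : LiftSetting V F π)
include hS

omit [FaithfulSMul X V] [MulDistribMulAction X V] in
lemma lift_unique {s t : Lt} (hs : s * s = 1) (ht : t * t = 1) (h : π s = π t) : s = t := by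
  have hker : π (s * t) = 1 := by rw [map_mul, h, ← map_mul, ht, map_one]
  have hc := hS.kerComm _ hker s hs
  have h1 : Commute s t := by
    have h' : s * t * s = t := by rw [hc.eq, ← mul_assoc, hs, one_mul]
    show s * t = t * s
    calc s * t = s * t * (s * s) := by rw [hs, mul_one]
      _ = t * s := by rw [← mul_assoc, h']
  have h2 := orderOf_eq_one_of_odd (hS.kerOdd _ hker) (by
    rw [h1.symm.mul_mul_mul_comm, hs, ht, one_mul])
  exact (eq_inv_of_mul_eq_one_left h2).trans (inv_eq_of_sq ht)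

omit [FaithfulSMul X V] [MulDistribMulAction X V] in
lemma exists_lift [Finite Lt] {a : X} (ha : a * a = 1) : ∃ s, s * s = 1 ∧ π s = a := by
  haveI : Fact (Nat.Prime 2) := ⟨Nat.prime_two⟩
  obtain ⟨g, rfl⟩ := hS.surj a
  obtain ⟨i, j, hij, ⟨k, hk⟩, hj⟩ :=
    CfsgLib.NormalPComplement.exists_pParts (p := 2) (isOfFinOrder_of_finite g)
  have h1 : π (g ^ j) = 1 := by
    refine orderOf_eq_one_of_odd
      (Odd.of_dvd_nat (Nat.coprime_two_right.1 hj) (orderOf_map_dvd π _)) ?_
    rw [map_pow, ← (Commute.refl (π g)).mul_pow, ha, one_pow]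
  refine ⟨g ^ i, ?_, ?_⟩
  · have hker : π (g ^ i * g ^ i) = 1 := by
      rw [← (Commute.refl g).mul_pow, map_pow, map_mul, ha, one_pow]
    refine orderOf_eq_one_iff.1 (Nat.eq_one_of_dvd_coprimes
      ((Nat.coprime_two_left.2 (hS.kerOdd _ hker)).pow_left k) ?_ dvd_rfl)
    rw [← pow_two]
    exact (orderOf_pow_dvd 2).trans hk
  · conv_rhs => rw [← hij, map_mul, h1, mul_one]

omit [FaithfulSMul X V] in
lemma LTV.conj {s : Lt} {w : V} (h : LTV π s w) (g : Lt) : LTV π (g * s * g⁻¹) (π g • w) := by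
  refine ⟨?_, by rw [map_mul, map_mul, map_inv]; exact h.2.conj (π g)⟩
  calc g * s * g⁻¹ * (g * s * g⁻¹) = g * (s * s) * g⁻¹ := by group
    _ = 1 := by rw [h.1]; group

omit [FaithfulSMul X V] [MulDistribMulAction X V] in
lemma self_mem_lcl {s : Lt} (h : s * s = 1) : s ∈ lcl F π s :=
  ⟨h, self_mem_cl hS.setting (π s)⟩

omit [FaithfulSMul X V] [MulDistribMulAction X V] in
lemma lcl_eq_of_mem {s t : Lt} (h : t ∈ lcl F π s) : lcl F π t = lcl F π s := by
  simp only [lcl, cl_eq_of_mem hS.setting h.2]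

omit [FaithfulSMul X V] in
lemma exists_lcl_center {s t : Lt} {w : V} (h : LTV π s w) (ht : t ∈ lcl F π s) :
    ∃ z : V, LTV π t z := by
  obtain ⟨z, hz⟩ := exists_center hS.setting h.2 ht.2
  exact ⟨z, ht.1, hz⟩

variable [Finite X] [Finite Lt]

lemma exists_lpartner {s : Lt} {u : V} (h : LTV π s u) :
    ∃ t ∈ lcl F π s, t ≠ s ∧ ∃ w : V, LTV π t w ∧ π s • w = w * u ∧ π t • u = u * w := by
  obtain ⟨b, hb, w, hne, hbw, h1, h2⟩ := exists_partner hS.setting h.2
  obtain ⟨t, ht, rfl⟩ := exists_lift hS (hbw.mul_self hS.setting.sq)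
  exact ⟨t, ⟨ht, hb⟩, fun e => hne (by rw [e]), w, ⟨ht, hbw⟩, h1, h2⟩

lemma commute_of_not_mem_lcl {s t : Lt} {u w : V} (hs : LTV π s u) (ht : LTV π t w)
    (h : t ∉ lcl F π s) : Commute s t := by
  have h1 : π t ∉ cl F (π s) := fun e => h ⟨ht.1, e⟩
  have hc := commute_of_not_mem hS.setting hs.2 ht.2 h1
  have hker : π (s * t * (s * t)) = 1 := by
    rw [map_mul, map_mul, hc.symm.mul_mul_mul_comm, hs.2.mul_self hS.setting.sq,
      ht.2.mul_self hS.setting.sq, one_mul]
  have hcs := hS.kerComm _ hker s hs.1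
  have h2 : s * t * (s * t) * (s * t * (s * t)) = 1 := by
    have e : s * t * (s * t) = t * s * (t * s) := by
      calc s * t * (s * t) = s * (s * t * (s * t) * s) := by
            rw [hcs.eq, ← mul_assoc s s, hs.1, one_mul]
        _ = (s * s) * t * (s * t) * s := by group
        _ = t * s * (t * s) := by rw [hs.1]; group
    calc s * t * (s * t) * (s * t * (s * t)) = s * t * (s * t) * (t * s * (t * s)) :=
          congrArg (s * t * (s * t) * ·) e
      _ = s * t * s * (t * t) * s * t * s := by group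
      _ = 1 := by
        rw [ht.1, mul_one, mul_assoc (s * t) s s, hs.1, mul_one, mul_assoc s t t, ht.1, mul_one,
          hs.1]
  have h3 := orderOf_eq_one_of_odd (hS.kerOdd _ hker) h2
  exact (eq_inv_of_mul_eq_one_left h3).trans (by rw [mul_inv_rev, inv_eq_of_sq ht.1, inv_eq_of_sq hs.1])

lemma lcl_three {s t : Lt} {u : V} (hs : LTV π s u) (ht : t ∈ lcl F π s) (hne : t ≠ s) :
    s * t * (s * t) * (s * t) = 1 ∧ s * t * s ∈ lcl F π s ∧
      ∀ c ∈ lcl F π s, c = s ∨ c = t ∨ c = s * t * s := by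
  have h2 := hS.setting.sq
  obtain ⟨w, htw⟩ := exists_lcl_center hS hs ht
  have hne' : π t ≠ π s := fun e => hne (lift_unique hS ht.1 hs.1 e)
  have hmid : s * t * s * (s * t * s) = 1 := by
    calc s * t * s * (s * t * s) = s * (t * ((s * s) * t)) * s := by group
      _ = 1 := by rw [hs.1, one_mul, ht.1, mul_one, hs.1]
  have hmem : s * t * s ∈ lcl F π s :=
    ⟨hmid, by rw [map_mul, map_mul]; exact third_mem hS.setting hs.2 ht.2⟩
  refine ⟨?_, hmem, fun c hc => ?_⟩
  · have hmid' : t * s * t * (t * s * t) = 1 := by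
      calc t * s * t * (t * s * t) = t * (s * ((t * t) * s)) * t := by group
        _ = 1 := by rw [ht.1, one_mul, hs.1, mul_one, ht.1]
    have hp : π (t * s * t) ∈ cl F (π s) := by
      have := third_mem hS.setting htw.2 ((cl_eq_of_mem hS.setting ht.2).symm ▸
        self_mem_cl hS.setting (π s))
      rw [cl_eq_of_mem hS.setting ht.2] at this
      rwa [map_mul, map_mul]
    obtain ⟨m1, m2⟩ := moves_of_mem hS.setting hs.2 ht.2 htw.2 hne'
    have hpi : π (t * s * t) = π (s * t * s) := by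
      have hne1 : π (t * s * t) ≠ π s := by
        intro e
        have hd := third_isTV h2 htw.2 hs.2 m2
        rw [map_mul, map_mul] at e
        rw [e] at hd
        exact htw.2.ne_one (mul_eq_left.1 (hd.unique hs.2))
      have hne2 : π (t * s * t) ≠ π t := by
        intro e
        refine hne' ?_
        rw [map_mul, map_mul] at e
        calc π t = π t * (π t * π t) := by rw [htw.2.mul_self h2, mul_one]
          _ = π t * (π t * π s * π t) * π t := by rw [e]; group
          _ = (π t * π t) * π s * (π t * π t) := by group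
          _ = π s := by rw [htw.2.mul_self h2]; group
      rcases cl_subset hS.setting hs.2 ht.2 hne' hp with e | e | e
      · exact absurd e hne1
      · exact absurd e hne2
      · rw [e, map_mul, map_mul]
    have e := lift_unique hS hmid' hmid hpi
    calc s * t * (s * t) * (s * t) = s * t * s * (t * s * t) := by group
      _ = s * t * s * (s * t * s) := by rw [e]
      _ = 1 := hmid
  · rcases cl_subset hS.setting hs.2 ht.2 hne' hc.2 with e | e | e
    · exact .inl (lift_unique hS hc.1 hs.1 e)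
    · exact .inr (.inl (lift_unique hS hc.1 ht.1 e))
    · exact .inr (.inr (lift_unique hS hc.1 hmid (by rw [e, map_mul, map_mul])))

lemma lE_eq {s t : Lt} {u : V} (hs : LTV π s u) (ht : t ∈ lcl F π s) (hne : t ≠ s) :
    lE F π s = Subgroup.zpowers (s * t) := by
  obtain ⟨h3, hmem, hcl⟩ := lcl_three hS hs ht hne
  refine le_antisymm ((Subgroup.closure_le _).2 ?_) (Subgroup.zpowers_le.2
    (Subgroup.subset_closure ⟨s, self_mem_lcl hS hs.1, t, ht, rfl⟩))
  rintro e ⟨p, hp, q, hq, rfl⟩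
  have hts : t * s = (s * t)⁻¹ := by rw [mul_inv_rev, inv_eq_of_sq hs.1, inv_eq_of_sq ht.1]
  have m1 : ∀ {p}, p ∈ lcl F π s → s * p ∈ Subgroup.zpowers (s * t) := by
    intro p hp
    rcases hcl p hp with rfl | rfl | rfl
    · rw [hs.1]; exact one_mem _
    · exact Subgroup.mem_zpowers _
    · rw [← mul_assoc, ← mul_assoc, hs.1, one_mul, hts]
      exact inv_mem (Subgroup.mem_zpowers _)
  have h := mul_mem (inv_mem (m1 hp)) (m1 hq)
  rwa [mul_inv_rev, mul_assoc, inv_mul_cancel_left, inv_eq_of_sq hp.1] at h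

lemma lE_card {s : Lt} {u : V} (hs : LTV π s u) : Nat.card (lE F π s) = 3 := by
  obtain ⟨t, ht, hne, -⟩ := exists_lpartner hS hs
  rw [lE_eq hS hs ht hne, Nat.card_zpowers]
  refine orderOf_eq_prime (hp := ⟨Nat.prime_three⟩) ?_ fun e => hne ?_
  · rw [pow_succ, pow_two]; exact (lcl_three hS hs ht hne).1
  · exact (inv_eq_of_sq hs.1 ▸ (eq_inv_of_mul_eq_one_right e) : t = s)

omit [FaithfulSMul X V] [MulDistribMulAction X V] [Finite X] [Finite Lt] in
lemma lE_congr {s t : Lt} (h : t ∈ lcl F π s) : lE F π t = lE F π s := by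
  rw [lE, lE, lcl_eq_of_mem hS h]

lemma conj_lcl {s : Lt} {u : V} (hs : LTV π s u) (g : Lt) {t : Lt} (ht : t ∈ lcl F π s) :
    g * t * g⁻¹ ∈ lcl F π (g * s * g⁻¹) := by
  refine ⟨by calc g * t * g⁻¹ * (g * t * g⁻¹) = g * (t * t) * g⁻¹ := by group
                _ = 1 := by rw [ht.1]; group, ?_⟩
  obtain ⟨f, hf, e⟩ := ht.2
  refine ⟨π g * f * (π g)⁻¹, hS.setting.normal.conj_mem f hf _, ?_⟩
  simp only [map_mul, map_inv, e]; group

/-- A lift normalises every class. -/
lemma conj_mem_lcl {s c : Lt} {u z : V} (hs : LTV π s u) (hc : LTV π c z) {t : Lt}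
    (ht : t ∈ lcl F π s) : c * t * c⁻¹ ∈ lcl F π s := by
  by_cases h : c ∈ lcl F π s
  · have h' := conj_lcl hS hc c (t := t) (by rwa [lcl_eq_of_mem hS h])
    rwa [mul_inv_cancel_right, lcl_eq_of_mem hS h] at h'
  · obtain ⟨w, htw⟩ := exists_lcl_center hS hs ht
    have h1 : c ∉ lcl F π t := by rwa [lcl_eq_of_mem hS ht]
    rwa [← (commute_of_not_mem_lcl hS htw hc h1).eq, mul_inv_cancel_right]

lemma ker_conj_mem_lcl {s c : Lt} (hc : π c = 1) {t : Lt} (ht : t ∈ lcl F π s) :
    c * t * c⁻¹ ∈ lcl F π s := by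
  rwa [(hS.kerComm c hc t ht.1).eq, mul_inv_cancel_right]

lemma lE_commute {s s' : Lt} {u u' : V} (hs : LTV π s u) (hs' : LTV π s' u') {e e' : Lt}
    (he : e ∈ lE F π s) (he' : e' ∈ lE F π s') : Commute e e' := by
  obtain ⟨t, ht, hne, w, htw, -⟩ := exists_lpartner hS hs
  obtain ⟨t', ht', hne', w', htw', -⟩ := exists_lpartner hS hs'
  rw [lE_eq hS hs ht hne] at he
  rw [lE_eq hS hs' ht' hne'] at he'
  obtain ⟨i, rfl⟩ := Subgroup.mem_zpowers_iff.1 he
  obtain ⟨j, rfl⟩ := Subgroup.mem_zpowers_iff.1 he'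
  refine Commute.zpow_zpow ?_ i j
  by_cases h : s' ∈ lcl F π s
  · have e : lE F π s' = lE F π s := lE_congr hS h
    rw [lE_eq hS hs ht hne, lE_eq hS hs' ht' hne'] at e
    obtain ⟨k, hk⟩ := Subgroup.mem_zpowers_iff.1 (e ▸ Subgroup.mem_zpowers (s' * t'))
    rw [← hk]
    exact (Commute.refl _).zpow_right k
  · have hts : lcl F π t = lcl F π s := lcl_eq_of_mem hS ht
    have hts' : lcl F π t' = lcl F π s' := lcl_eq_of_mem hS ht'
    have h1 : t' ∉ lcl F π s := fun e =>
      h (by rw [← lcl_eq_of_mem hS e, hts']; exact self_mem_lcl hS hs'.1)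
    exact ((commute_of_not_mem_lcl hS hs hs' h).mul_right
      (commute_of_not_mem_lcl hS hs htw' h1)).mul_left
        ((commute_of_not_mem_lcl hS htw hs' (hts ▸ h)).mul_right
          (commute_of_not_mem_lcl hS htw htw' (hts ▸ h1)))

lemma lP_comm : IsMulCommutative ↥(lP F π V) := by
  refine Subgroup.isMulCommutative_closure ?_
  rintro e ⟨s, ⟨u, hs⟩, he⟩ e' ⟨s', ⟨u', hs'⟩, he'⟩
  exact (lE_commute hS hs hs' he he').eq

omit [FaithfulSMul X V] [Finite X] [Finite Lt] in
lemma lE_le_lP {s : Lt} {u : V} (hs : LTV π s u) : lE F π s ≤ lP F π V :=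
  fun _ he => Subgroup.subset_closure ⟨s, ⟨u, hs⟩, he⟩

lemma lP_pow_three {e : Lt} (he : e ∈ lP F π V) : e ^ 3 = 1 := by
  haveI := lP_comm hS
  induction he using Subgroup.closure_induction with
  | mem e he =>
    obtain ⟨s, ⟨u, hs⟩, he⟩ := he
    have h := pow_card_eq_one' (x := (⟨e, he⟩ : ↥(lE F π s)))
    rw [lE_card hS hs] at h
    exact congrArg Subtype.val h
  | one => simp
  | mul a b ha hb iha ihb =>
    have hc : Commute a b := congrArg Subtype.val
      (mul_comm' (⟨a, ha⟩ : ↥(lP F π V)) ⟨b, hb⟩)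
    rw [hc.mul_pow, iha, ihb, one_mul]
  | inv a _ ih => rw [inv_pow, ih, inv_one]

omit [Finite X] [Finite Lt] in
lemma lP_le_comap : lP F π V ≤ F.comap π := by
  refine (Subgroup.closure_le _).2 fun e he => ?_
  obtain ⟨s, ⟨u, hs⟩, he⟩ := he
  refine (Subgroup.closure_le (K := F.comap π)).2 ?_ he
  rintro _ ⟨p, hp, q, hq, rfl⟩
  show π (p * q) ∈ F
  rw [map_mul]
  exact mul_mem_of_mem_cl hS.setting hs.2 hp.2 hq.2

lemma conj_mem_lP (g : Lt) {e : Lt} (he : e ∈ lP F π V) : g * e * g⁻¹ ∈ lP F π V := by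
  induction he using Subgroup.closure_induction with
  | mem e he =>
    obtain ⟨s, ⟨u, hs⟩, he⟩ := he
    refine lE_le_lP hS (hs.conj hS g) ?_
    induction he using Subgroup.closure_induction with
    | mem e he =>
      obtain ⟨p, hp, q, hq, rfl⟩ := he
      exact Subgroup.subset_closure ⟨_, conj_lcl hS hs g hp, _, conj_lcl hS hs g hq, by group⟩
    | one => simp
    | mul a b _ _ iha ihb => simpa [mul_assoc] using mul_mem iha ihb
    | inv a _ ih => simpa [mul_assoc] using inv_mem ih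
  | one => simp
  | mul a b _ _ iha ihb => simpa [mul_assoc] using mul_mem iha ihb
  | inv a _ ih => simpa [mul_assoc] using inv_mem ih

/-- Two lifts commute modulo `lP`, so odd elements generated by lifts lie in `lP`. -/
lemma odd_mem_lP {h : Lt} (hh : h ∈ Subgroup.closure {s : Lt | ∃ w : V, LTV π s w})
    (ho : Odd (orderOf h)) : h ∈ lP F π V := by
  haveI hn : (lP F π V).Normal := ⟨fun e he g => conj_mem_lP hS g he⟩
  set S := {s : Lt | ∃ w : V, LTV π s w}
  set q := QuotientGroup.mk' (lP F π V)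
  have hcomm : ∀ a ∈ q '' S, ∀ b ∈ q '' S, a * b = b * a := by
    rintro _ ⟨s, ⟨u, hs⟩, rfl⟩ _ ⟨t, ⟨w, ht⟩, rfl⟩
    rw [← map_mul, ← map_mul]
    by_cases hm : t ∈ lcl F π s
    · refine (QuotientGroup.eq.2 ?_)
      rw [mul_inv_rev, inv_eq_of_sq hs.1, inv_eq_of_sq ht.1]
      have e : t * s * (t * s) ∈ lE F π s := mul_mem
        (Subgroup.subset_closure ⟨t, hm, s, self_mem_lcl hS hs.1, rfl⟩)
        (Subgroup.subset_closure ⟨t, hm, s, self_mem_lcl hS hs.1, rfl⟩)
      exact lE_le_lP hS hs e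
    · rw [(commute_of_not_mem_lcl hS hs ht hm).eq]
  haveI : IsMulCommutative ↥(Subgroup.closure (q '' S)) := Subgroup.isMulCommutative_closure hcomm
  have hmem : q h ∈ Subgroup.closure (q '' S) := by
    rw [← MonoidHom.map_closure]; exact Subgroup.mem_map_of_mem _ hh
  have hsq : q h * q h = 1 := by
    generalize q h = y at hmem
    induction hmem using Subgroup.closure_induction with
    | mem a ha =>
      obtain ⟨s, ⟨u, hs⟩, rfl⟩ := ha
      rw [← map_mul, hs.1, map_one]
    | one => simp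
    | mul a b ha hb iha ihb =>
      have hc : Commute a b := congrArg Subtype.val
        (mul_comm' (⟨a, ha⟩ : ↥(Subgroup.closure (q '' S))) ⟨b, hb⟩)
      rw [hc.symm.mul_mul_mul_comm, iha, ihb, one_mul]
    | inv a _ ih => rw [← mul_inv_rev, ih, inv_one]
  exact (QuotientGroup.eq_one_iff h).1
    (orderOf_eq_one_of_odd (Odd.of_dvd_nat ho (orderOf_map_dvd q h)) hsq)

end CfsgLib.JComponents
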