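import Cfsg.Agent.Lib.JComponents.Component
import Cfsg.Agent.Lib.JComponents.Lift
import Cfsg.Agent.Lib.Cores.Fitting

/-!
Local structure of `L ∈ jOvergroups T` in a ZN-group of characteristic 2 type: the action on
`Ω₁(Z(O₂(L)))` has kernel centralised by all 2-elements modulo `O₂(L)`, and `J(T)` maps to a group
generated by lifts of transvections.
-/

set_option autoImplicit false

open scoped IsMulCommutative

namespace CfsgLib.JComponents

open Cfsg CfsgLib.ThompsonJ Subgroup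

variable {G : Type*} [Group G]

/-- The standing hypotheses. -/
structure ZN (G : Type*) [Group G] : Prop where
  char2 : IsCharacteristicTwoType G
  solv : ∀ N : Subgroup G, IsTwoLocal N → Group.IsSolvable ↥N
  cz : ∀ S : Sylow 2 G, centralizer (omegaCenterOf (S : Subgroup G) : Set G) ≤
    normalizer ((S : Subgroup G) : Set G)

instance isMulCommutative_omegaCenterOf (X : Subgroup G) : IsMulCommutative ↥(omegaCenterOf X) :=
  (isElementaryAbelian_omegaCenterOf X).1

lemma exists_two_parts [Finite G] (g : G) :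
    ∃ a b : ℕ, g ^ a * g ^ b = g ∧ (∃ k, orderOf (g ^ a) ∣ 2 ^ k) ∧ Odd (orderOf (g ^ b)) := by
  haveI : Fact (Nat.Prime 2) := ⟨Nat.prime_two⟩
  obtain ⟨a, b, h1, h2, h3⟩ :=
    CfsgLib.NormalPComplement.exists_pParts (p := 2) (isOfFinOrder_of_finite g)
  exact ⟨a, b, h1, h2, Nat.coprime_two_right.1 h3⟩

lemma isPGroup_zpowers_of_dvd [Finite G] {g : G} {k : ℕ} (h : orderOf g ∣ 2 ^ k) :
    IsPGroup 2 ↥(zpowers g) := by
  obtain ⟨i, -, hi⟩ := (Nat.dvd_prime_pow Nat.prime_two).1 h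
  exact IsPGroup.iff_card.2 ⟨i, by rw [Nat.card_zpowers, hi]⟩

lemma dvd_two_pow_of_mem [Finite G] {T : Subgroup G} (hT : IsPGroup 2 T) {g : G} (hg : g ∈ T) :
    ∃ k, orderOf g ∣ 2 ^ k := by
  obtain ⟨k, hk⟩ := IsPGroup.iff_card.1 hT
  exact ⟨k, hk ▸ orderOf_dvd_natCard (s := (T : Subgroup G)) hg⟩

lemma le_normalizer_omega [Finite G] (L : Subgroup G) :
    L ≤ normalizer (omegaCenterOf (pCoreOf 2 L) : Set G) :=
  (CfsgLib.FFModules.le_normalizer_pCoreOf L).trans (normalizer_le_normalizer_omegaCenterOf _)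

/-- The action of `L` on `Ω₁(Z(O₂(L)))`. -/
noncomputable def actL [Finite G] (L : Subgroup G) :
    ↥L →* MulAut ↥(omegaCenterOf (pCoreOf 2 L)) :=
  (normalizerMonoidHom (omegaCenterOf (pCoreOf 2 L))).comp (inclusion (le_normalizer_omega L))

lemma actL_apply [Finite G] (L : Subgroup G) (g : ↥L) (v : ↥(omegaCenterOf (pCoreOf 2 L))) :
    ((actL L g v : ↥(omegaCenterOf (pCoreOf 2 L))) : G) = (g : G) * v * (g : G)⁻¹ := rfl

lemma actL_eq_one_iff [Finite G] {L : Subgroup G} {g : ↥L} :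
    actL L g = 1 ↔ (g : G) ∈ centralizer (omegaCenterOf (pCoreOf 2 L) : Set G) := by
  constructor
  · intro h
    refine mem_centralizer_iff.2 fun v hv => (mul_inv_eq_iff_eq_mul.1 ?_).symm
    rw [← actL_apply L g ⟨v, hv⟩, h]; rfl
  · intro h
    refine MulEquiv.ext fun v => Subtype.ext ?_
    rw [actL_apply, ← mem_centralizer_iff.1 h v v.2, mul_inv_cancel_right]; rfl

/-- The map from `L/O₂(L)` to the group induced on `Ω₁(Z(O₂(L)))`. -/
noncomputable def proj [Finite G] (L : Subgroup G) :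
    ↥L ⧸ pCore 2 ↥L →* ↥(actL L).range :=
  QuotientGroup.lift _ (actL L).rangeRestrict fun g hg => by
    refine Subtype.ext (actL_eq_one_iff.2 ?_)
    exact le_centralizer_iff.1 (omegaCenterOf_le_centralizer _)
      (Subgroup.mem_map_of_mem L.subtype hg)

lemma proj_mk [Finite G] (L : Subgroup G) (g : ↥L) :
    proj L (QuotientGroup.mk g) = (actL L).rangeRestrict g := rfl

lemma proj_eq_one_iff [Finite G] {L : Subgroup G} {g : ↥L} :
    proj L (QuotientGroup.mk g) = 1 ↔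
      (g : G) ∈ centralizer (omegaCenterOf (pCoreOf 2 L) : Set G) := by
  rw [proj_mk, ← actL_eq_one_iff]
  exact ⟨fun h => congrArg Subtype.val h, fun h => Subtype.ext h⟩

lemma smul_coe [Finite G] {L : Subgroup G} (g : ↥L) (v : ↥(omegaCenterOf (pCoreOf 2 L))) :
    ((proj L (QuotientGroup.mk g) • v : ↥(omegaCenterOf (pCoreOf 2 L))) : G) =
      (g : G) * v * (g : G)⁻¹ := rfl

section

variable [Finite G] {T L : Subgroup G} (hZN : ZN G) (hT : IsPGroup 2 T) (hT1 : T ≠ ⊥)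
  (hL : L ∈ jOvergroups T)
include hZN hT hT1 hL

omit hZN in
lemma core_ne_bot : pCoreOf 2 L ≠ ⊥ := by
  intro h
  have h1 := hL.2.2
  rw [h] at h1
  refine hT1 ((eq_bot_iff_forall T).2 fun t _ => mem_bot.1 (h1 ?_))
  exact mem_centralizer_iff.2 fun y hy => by rw [SetLike.mem_coe, mem_bot] at hy; simp [hy]

lemma local_isSolvable : Group.IsSolvable ↥L :=
  haveI := hZN.solv _ ⟨pCoreOf 2 L, CfsgLib.FFModules.isPGroup_pCoreOf L,
    core_ne_bot hT hT1 hL, rfl⟩
  Group.isSolvable_of_isSolvable_injective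
    (inclusion_injective (CfsgLib.FFModules.le_normalizer_pCoreOf L (p := 2)))

omit hZN hT hT1 hL in
lemma core_le_sylow {U : Subgroup G} (hU : IsSylowTwoIn U L) : pCoreOf 2 L ≤ U :=
  le_of_normal_of_isSylowTwoIn hU (CfsgLib.FFModules.pCoreOf_le L)
    (CfsgLib.FFModules.isPGroup_pCoreOf L) (hU.1.trans (CfsgLib.FFModules.le_normalizer_pCoreOf L))

lemma centralizer_normalizes {c : G} (hcL : c ∈ L)
    (hcV : c ∈ centralizer (omegaCenterOf (pCoreOf 2 L) : Set G)) {U : Subgroup G}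
    (hU : IsSylowTwoIn U L) : c ∈ normalizer (U : Set G) := by
  obtain ⟨S, hS⟩ := hU.2.1.exists_le_sylow
  have hQS : pCoreOf 2 L ≤ (S : Subgroup G) := (core_le_sylow hU).trans hS
  have hZV : omegaCenterOf (S : Subgroup G) ≤ omegaCenterOf (pCoreOf 2 L) := by
    intro z hz
    have hzQ : z ∈ pCoreOf 2 L :=
      hL.2.2 (centralizer_le hQS (omegaCenterOf_le_centralizer _ hz))
    exact mem_omegaOne ⟨hzQ, centralizer_le hQS (omegaCenterOf_le_centralizer _ hz)⟩
      ((isElementaryAbelian_omegaCenterOf _).2 z hz)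
  have hcS := hZN.cz S (centralizer_le hZV hcV)
  have hUeq : U = (S : Subgroup G) ⊓ L :=
    eq_of_isSylowTwoIn hU inf_le_right (S.2.to_le inf_le_left) (le_inf hS hU.1)
  refine mem_normalizer_of_forall fun u hu => ?_
  rw [hUeq] at hu ⊢
  exact mem_inf.2 ⟨conj_mem_of_mem_normalizer hcS (mem_inf.1 hu).1,
    L.mul_mem (L.mul_mem hcL (mem_inf.1 hu).2) (L.inv_mem hcL)⟩

/-- The 2-elements of `C_L(V)` lie in `O₂(L)`. -/
lemma mem_core_of_centralizer {c : G} (hcL : c ∈ L)
    (hcV : c ∈ centralizer (omegaCenterOf (pCoreOf 2 L) : Set G)) {k : ℕ}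
    (hk : orderOf c ∣ 2 ^ k) : c ∈ pCoreOf 2 L := by
  have key : ∀ d ∈ L, d ∈ centralizer (omegaCenterOf (pCoreOf 2 L) : Set G) →
      ∀ k, orderOf d ∣ 2 ^ k → ∀ U, IsSylowTwoIn U L → d ∈ U := by
    intro d hdL hdV k hk U hU
    rw [eq_of_isSylowTwoIn hU (sup_le (zpowers_le.2 hdL) hU.1)
      (isPGroup_sup (isPGroup_zpowers_of_dvd hk) hU.2.1
        (zpowers_le.2 (centralizer_normalizes hZN hT hT1 hL hdL hdV hU))) le_sup_right]
    exact le_sup_left (b := U) (mem_zpowers d)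
  set D := T ⊓ centralizer (omegaCenterOf (pCoreOf 2 L) : Set G) with hD
  have hDn : L ≤ normalizer (D : Set G) := fun g hg => mem_normalizer_of_forall fun d hd => by
    have hgd : g * d * g⁻¹ ∈ centralizer (omegaCenterOf (pCoreOf 2 L) : Set G) := by
      refine mem_centralizer_iff.2 fun v hv => ?_
      have hv' := conj_inv_mem_of_mem_normalizer (le_normalizer_omega L hg) hv
      calc v * (g * d * g⁻¹) = g * ((g⁻¹ * v * g) * d) * g⁻¹ := by group
        _ = g * (d * (g⁻¹ * v * g)) * g⁻¹ := by rw [mem_centralizer_iff.1 hd.2 _ hv']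
        _ = g * d * g⁻¹ * v := by group
    obtain ⟨j, hj⟩ := dvd_two_pow_of_mem hT hd.1
    refine ⟨key _ (mul_mem (mul_mem hg (hL.1.1 hd.1)) (inv_mem hg)) hgd j ?_ T hL.1, hgd⟩
    rw [← MulAut.conj_apply, MulEquiv.orderOf_eq]
    exact hj
  exact CfsgLib.FFModules.le_pCoreOf (inf_le_left.trans hL.1.1) hDn (hT.to_le inf_le_left)
    ⟨key c hcL hcV k hk T hL.1, hcV⟩

/-- `C_L(V)` commutes with 2-elements modulo `O₂(L)`. -/
lemma commutator_mem_core {c t : G} (hcL : c ∈ L)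
    (hcV : c ∈ centralizer (omegaCenterOf (pCoreOf 2 L) : Set G)) (htL : t ∈ L) {k : ℕ}
    (hk : orderOf t ∣ 2 ^ k) : c * t * c⁻¹ * t⁻¹ ∈ pCoreOf 2 L := by
  obtain ⟨U, hU, htU⟩ := exists_isSylowTwoIn_ge (zpowers_le.2 htL) (isPGroup_zpowers_of_dvd hk)
  have ht : t ∈ U := htU (mem_zpowers t)
  have hm : c * t * c⁻¹ * t⁻¹ ∈ U :=
    mul_mem (conj_mem_of_mem_normalizer (centralizer_normalizes hZN hT hT1 hL hcL hcV hU) ht)
      (inv_mem ht)
  have hmV : c * t * c⁻¹ * t⁻¹ ∈ centralizer (omegaCenterOf (pCoreOf 2 L) : Set G) := by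
    rw [show c * t * c⁻¹ * t⁻¹ = c * (t * c⁻¹ * t⁻¹) by group]
    refine mul_mem hcV (mem_centralizer_iff.2 fun v hv => ?_)
    have hv' := conj_inv_mem_of_mem_normalizer (le_normalizer_omega L htL) hv
    calc v * (t * c⁻¹ * t⁻¹) = t * ((t⁻¹ * v * t) * c⁻¹) * t⁻¹ := by group
      _ = t * (c⁻¹ * (t⁻¹ * v * t)) * t⁻¹ := by
        rw [mem_centralizer_iff.1 (inv_mem hcV) _ hv']
      _ = t * c⁻¹ * t⁻¹ * v := by group
  obtain ⟨j, hj⟩ := dvd_two_pow_of_mem hU.2.1 hm
  exact mem_core_of_centralizer hZN hT hT1 hL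
    (mul_mem (mul_mem (mul_mem hcL htL) (inv_mem hcL)) (inv_mem htL)) hmV hj

lemma range_core_eq_bot : pCore 2 ↥(actL L).range = ⊥ := by
  haveI : Fact (Nat.Prime 2) := ⟨Nat.prime_two⟩
  set φ := (actL L).rangeRestrict with hφ
  have hφs : Function.Surjective φ := MonoidHom.rangeRestrict_surjective _
  haveI : (pCore 2 ↥(actL L).range).Normal := CfsgLib.FFModules.normal_pCore
  obtain ⟨P, hP⟩ := (hT.comap_of_injective L.subtype L.subtype_injective).exists_le_sylow
  have hPT : (P : Subgroup ↥L).map L.subtype = T :=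
    (eq_of_isSylowTwoIn hL.1 (map_subtype_le _) (P.2.map _)
      ((map_subgroupOf_eq_of_le hL.1.1).symm.trans_le (map_mono hP))).symm
  have hle : pCore 2 ↥(actL L).range ≤ (P.mapSurjective hφs : Subgroup ↥(actL L).range) :=
    CfsgLib.FFModules.pCore_le_sylow _
  set D := ((pCore 2 ↥(actL L).range).comap φ ⊓ (P : Subgroup ↥L)).map L.subtype with hD
  have hDn : L ≤ normalizer (D : Set G) := fun g hg => mem_normalizer_of_forall fun d hd => by
    obtain ⟨d', ⟨hd1, hd2⟩, rfl⟩ := hd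
    set u : ↥L := ⟨g, hg⟩ * d' * ⟨g, hg⟩⁻¹ with hu
    have hu1 : u ∈ (pCore 2 ↥(actL L).range).comap φ :=
      Normal.conj_mem inferInstance d' hd1 ⟨g, hg⟩
    refine ⟨u, ⟨hu1, ?_⟩, rfl⟩
    have hφu : φ u ∈ (P : Subgroup ↥L).map φ := hle hu1
    obtain ⟨t, ht, htu⟩ := hφu
    have hcV : ((u * t⁻¹ : ↥L) : G) ∈ centralizer (omegaCenterOf (pCoreOf 2 L) : Set G) := by
      rw [← actL_eq_one_iff]
      exact congrArg Subtype.val (show φ (u * t⁻¹) = 1 by rw [map_mul, map_inv, htu, mul_inv_cancel])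
    have htT : (t : G) ∈ T := hPT ▸ ⟨t, ht, rfl⟩
    have hnorm : (u : G) ∈ normalizer (T : Set G) := by
      rw [show (u : G) = ((u * t⁻¹ : ↥L) : G) * (t : G) by simp]
      exact mul_mem (centralizer_normalizes hZN hT hT1 hL (SetLike.coe_mem _) hcV hL.1)
        (le_normalizer htT)
    obtain ⟨j, hj⟩ := dvd_two_pow_of_mem (hT := hT) (g := (d' : G)) (hPT ▸ ⟨d', hd2, rfl⟩)
    have hju : orderOf (u : G) ∣ 2 ^ j := by
      rw [hu, Subgroup.coe_mul, Subgroup.coe_mul, Subgroup.coe_inv, ← MulAut.conj_apply,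
        MulEquiv.orderOf_eq]
      exact hj
    have huT : (u : G) ∈ T := by
      rw [eq_of_isSylowTwoIn hL.1 (sup_le (zpowers_le.2 u.2) hL.1.1)
        (isPGroup_sup (isPGroup_zpowers_of_dvd hju) hT (zpowers_le.2 hnorm)) le_sup_right]
      exact le_sup_left (b := T) (mem_zpowers _)
    rw [← hPT] at huT
    obtain ⟨u', hu', e⟩ := huT
    have e' : u' = u := L.subtype_injective e
    rw [← e']; exact hu'
  have hDQ : D ≤ pCoreOf 2 L :=
    CfsgLib.FFModules.le_pCoreOf (map_subtype_le _) hDn ((P.2.to_le inf_le_right).map _)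
  refine (eq_bot_iff_forall _).2 fun x hx => ?_
  obtain ⟨t, ht, rfl⟩ : x ∈ (P : Subgroup ↥L).map φ := hle hx
  have htQ : (t : G) ∈ pCoreOf 2 L := hDQ ⟨t, ⟨hx, ht⟩, rfl⟩
  exact Subtype.ext (actL_eq_one_iff.2
    (le_centralizer_iff.1 (omegaCenterOf_le_centralizer _) htQ))

theorem liftSetting :
    LiftSetting ↥(omegaCenterOf (pCoreOf 2 L)) (fittingSubgroup ↥(actL L).range) (proj L) := by
  haveI : Fact (Nat.Prime 2) := ⟨Nat.prime_two⟩
  haveI := local_isSolvable hZN hT hT1 hL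
  haveI : Group.IsSolvable ↥(actL L).range :=
    Group.isSolvable_of_surjective (actL L).rangeRestrict_surjective
  refine ⟨⟨fun v => Subtype.ext ?_, inferInstance, ?_,
    Cores.centralizer_fittingSubgroup_le⟩, ?_, ?_, ?_⟩
  · exact mul_self_of_mem (isElementaryAbelian_omegaCenterOf _) v.2
  · set F := fittingSubgroup ↥(actL L).range
    haveI : Group.IsNilpotent ↥F := Cores.isNilpotent_fittingSubgroup
    obtain ⟨P⟩ := (inferInstance : Nonempty (Sylow 2 ↥F))
    haveI hPn : (P : Subgroup ↥F).Normal :=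
      Sylow.normal_of_normalizerCondition normalizerCondition_of_isNilpotent P
    haveI := Sylow.characteristic_of_normal P hPn
    have hbot : (P : Subgroup ↥F).map F.subtype = ⊥ := by
      rw [← le_bot_iff, ← range_core_eq_bot hZN hT hT1 hL]
      exact CfsgLib.FFModules.le_pCore (Cores.normal_map_subtype F _) (P.2.map _)
    rw [map_eq_bot_iff_of_injective _ F.subtype_injective] at hbot
    by_contra h
    exact P.ne_bot_of_dvd_card (even_iff_two_dvd.1 (Nat.not_odd_iff_even.1 h)) hbot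
  · intro x
    obtain ⟨g, hg⟩ := (actL L).rangeRestrict_surjective x
    exact ⟨QuotientGroup.mk g, hg⟩
  · intro c hc
    obtain ⟨g, rfl⟩ := QuotientGroup.mk_surjective c
    obtain ⟨a, b, hab, ⟨k, hk⟩, hb⟩ := exists_two_parts g
    have hgaQ : g ^ a ∈ pCore 2 ↥L := by
      have h := mem_core_of_centralizer hZN hT hT1 hL (SetLike.coe_mem (g ^ a))
        (by rw [SubgroupClass.coe_pow]; exact pow_mem (proj_eq_one_iff.1 hc) a)
        (k := k) (by rwa [Subgroup.orderOf_coe])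
      obtain ⟨g', hg', e⟩ := h
      have e' : g' = g ^ a := Subtype.ext e
      rw [← e']; exact hg'
    rw [← hab, QuotientGroup.mk_mul, (QuotientGroup.eq_one_iff _).2 hgaQ, one_mul]
    exact Odd.of_dvd_nat hb (orderOf_map_dvd (QuotientGroup.mk' _) _)
  · intro c hc t ht
    obtain ⟨g, rfl⟩ := QuotientGroup.mk_surjective c
    obtain ⟨h, rfl⟩ := QuotientGroup.mk_surjective t
    obtain ⟨a, b, hab, ⟨k, hk⟩, hb⟩ := exists_two_parts h
    have hb1 : (QuotientGroup.mk (h ^ b) : ↥L ⧸ pCore 2 ↥L) = 1 := by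
      refine orderOf_eq_one_of_odd
        (Odd.of_dvd_nat hb (orderOf_map_dvd (QuotientGroup.mk' _) _)) ?_
      rw [QuotientGroup.mk_pow, ← (Commute.refl _).mul_pow, ht, one_pow]
    have he : (QuotientGroup.mk h : ↥L ⧸ pCore 2 ↥L) = QuotientGroup.mk (h ^ a) := by
      conv_lhs => rw [← hab, QuotientGroup.mk_mul, hb1, mul_one]
    rw [he]
    have hq := commutator_mem_core hZN hT hT1 hL g.2 (proj_eq_one_iff.1 hc)
      (SetLike.coe_mem (h ^ a)) (k := k) (by rwa [Subgroup.orderOf_coe])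
    obtain ⟨q, hq', e⟩ := hq
    have e' : q = g * h ^ a * g⁻¹ * (h ^ a)⁻¹ := L.subtype_injective (by simpa using e)
    have h1 := (QuotientGroup.eq_one_iff q).2 hq'
    rw [e', QuotientGroup.mk_mul, QuotientGroup.mk_mul, QuotientGroup.mk_mul, QuotientGroup.mk_inv,
      QuotientGroup.mk_inv, mul_inv_eq_one, mul_inv_eq_iff_eq_mul] at h1
    exact h1

omit hZN hT1 in
lemma thompson_le_local : thompsonSubgroupOf 2 T ≤ L := (thompsonSubgroupOf_le 2 T).trans hL.1.1

omit hZN hT1 in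
lemma omega_le_sylow : omegaCenterOf (pCoreOf 2 L) ≤ T :=
  (omegaCenterOf_le _).trans (core_le_sylow hL.1)

omit hT1 in
/-- Every elementary abelian subgroup of largest order acts as a product of transvections. -/
theorem max_generated (hT1 : T ≠ ⊥) {A : Subgroup G} (hA : IsMaxEA 2 T A) :
    closure {t : ↥(actL L).range | t ∈ (A.subgroupOf L).map (actL L).rangeRestrict ∧
      ∃ w : ↥(omegaCenterOf (pCoreOf 2 L)), IsTV t w} =
        (A.subgroupOf L).map (actL L).rangeRestrict := by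
  have hS := (liftSetting hZN hT hT1 hL).setting
  set φ := (actL L).rangeRestrict with hφ
  set V := omegaCenterOf (pCoreOf 2 L) with hV
  set A' := (A.subgroupOf L).map φ with hA'
  have hAL : A ≤ L := hA.le.trans hL.1.1
  have hfix : ∀ B : Subgroup G, B ≤ L →
      Nat.card (fix ((B.subgroupOf L).map φ) : Subgroup ↥V) =
        Nat.card ↥(V ⊓ centralizer (B : Set G)) := by
    intro B hB
    have e : (fix ((B.subgroupOf L).map φ) : Subgroup ↥V).map V.subtype =
        V ⊓ centralizer (B : Set G) := by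
      ext v
      constructor
      · rintro ⟨v', hv', rfl⟩
        refine ⟨v'.2, mem_centralizer_iff.2 fun b hb => mul_inv_eq_iff_eq_mul.1 ?_⟩
        exact congrArg Subtype.val (hv' (φ ⟨b, hB hb⟩) ⟨⟨b, hB hb⟩, hb, rfl⟩)
      · rintro ⟨hv, hvc⟩
        refine ⟨⟨v, hv⟩, ?_, rfl⟩
        rintro x ⟨b, hb, rfl⟩
        refine Subtype.ext ?_
        show (b : G) * v * (b : G)⁻¹ = v
        rw [mem_centralizer_iff.1 hvc b hb, mul_inv_cancel_right]
    rw [← e, card_map_of_injective V.subtype_injective]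
  have hA2 : ∀ a ∈ A', a * a = 1 := by
    rintro _ ⟨a, ha, rfl⟩
    rw [← map_mul]
    have : a * a = 1 := Subtype.ext (mul_self_of_mem hA.elem ha)
    rw [this, map_one]
  refine (offender hS A' hA2 fun B hB => ?_).2
  set B₀ := ((A.subgroupOf L) ⊓ B.comap φ).map L.subtype with hB₀
  have hB₀A : B₀ ≤ A := by rintro _ ⟨b, hb, rfl⟩; exact hb.1
  have hB₀map : (B₀.subgroupOf L).map φ = B := by
    rw [hB₀, subgroupOf, comap_map_eq_self_of_injective L.subtype_injective]
    refine le_antisymm ?_ fun x hx => ?_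
    · rintro _ ⟨b, hb, rfl⟩; exact hb.2
    · obtain ⟨a, ha, rfl⟩ := hB hx
      exact ⟨a, ⟨ha, hx⟩, rfl⟩
  have hcard : ∀ D : Subgroup G, D ≤ A → A ⊓ centralizer (V : Set G) ≤ D →
      Nat.card D = Nat.card ((D.subgroupOf L).map φ) * Nat.card ↥(A ⊓ centralizer (V : Set G)) := by
    intro D hDA hCD
    have hDL : D ≤ L := hDA.trans hAL
    have h1 := Subgroup.relIndex_ker (K := D.subgroupOf L) φ
    have hk : φ.ker = (centralizer (V : Set G)).subgroupOf L := by
      ext g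
      rw [MonoidHom.mem_ker, mem_subgroupOf, ← actL_eq_one_iff]
      exact ⟨fun h => congrArg Subtype.val h, fun h => Subtype.ext h⟩
    rw [hk, relIndex_subgroupOf hDL] at h1
    have hDC : centralizer (V : Set G) ⊓ D = A ⊓ centralizer (V : Set G) :=
      le_antisymm (le_inf (inf_le_right.trans hDA) inf_le_left) (le_inf inf_le_right hCD)
    rw [← h1, ← inf_relIndex_right, hDC, mul_comm]
    exact (card_mul_relIndex' hCD).symm
  have hVcap : A ⊓ centralizer (V : Set G) ≤ B₀ := fun a ha => by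
    refine ⟨⟨a, hAL ha.1⟩, ⟨ha.1, ?_⟩, rfl⟩
    show φ ⟨a, hAL ha.1⟩ ∈ B
    rw [show φ ⟨a, hAL ha.1⟩ = 1 from Subtype.ext (actL_eq_one_iff.2 ha.2)]
    exact B.one_mem
  have hb1 := hcard B₀ hB₀A hVcap
  rw [hB₀map] at hb1
  have ha1 := hcard A le_rfl inf_le_left
  have hVA : V ⊓ centralizer (A : Set G) = V ⊓ A := le_antisymm
    (le_inf inf_le_left fun v hv => hA.mem_of_centralizes (omega_le_sylow hT hL hv.1)
      ((isElementaryAbelian_omegaCenterOf _).2 v hv.1) hv.2)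
    (inf_le_inf_left _ (isElementaryAbelian_le_centralizer hA.elem))
  rw [hfix A hAL, hVA, ← hB₀map, hfix B₀ (hB₀A.trans hAL), hB₀map]
  have h := card_sup_le hA (hB₀A.trans hA.le) (isElementaryAbelian_mono hA.elem hB₀A)
    (inf_le_left.trans (omega_le_sylow hT hL))
    (isElementaryAbelian_mono (isElementaryAbelian_omegaCenterOf _) inf_le_left)
    (le_centralizer_iff.1 (inf_le_right : V ⊓ centralizer (B₀ : Set G) ≤ _))
  have hint : Nat.card ↥(B₀ ⊓ (V ⊓ centralizer (B₀ : Set G))) ≤ Nat.card ↥(V ⊓ A) :=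
    Nat.le_of_dvd Nat.card_pos
      (card_dvd_of_le (le_inf (inf_le_right.trans inf_le_left) (inf_le_left.trans hB₀A)))
  refine Nat.le_of_mul_le_mul_right ?_ (Nat.card_pos (α := ↥(A ⊓ centralizer (V : Set G))))
  calc Nat.card B * Nat.card ↥(V ⊓ centralizer (B₀ : Set G)) *
        Nat.card ↥(A ⊓ centralizer (V : Set G))
      = Nat.card B₀ * Nat.card ↥(V ⊓ centralizer (B₀ : Set G)) := by rw [hb1]; ring
    _ ≤ Nat.card A * Nat.card ↥(V ⊓ A) := h.trans (Nat.mul_le_mul_left _ hint)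
    _ = _ := by rw [ha1]; ring

/-- The image of `J(T)` modulo `O₂(L)` is generated by lifts of transvections. -/
theorem thompson_generated :
    (((thompsonSubgroupOf 2 T).subgroupOf L).map (QuotientGroup.mk' (pCore 2 ↥L))) ≤
      closure {s | s ∈ ((thompsonSubgroupOf 2 T).subgroupOf L).map (QuotientGroup.mk' (pCore 2 ↥L)) ∧
        ∃ w : ↥(omegaCenterOf (pCoreOf 2 L)), LTV (proj L) s w} := by
  have hS := liftSetting hZN hT hT1 hL
  set q := QuotientGroup.mk' (pCore 2 ↥L) with hq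
  set J := thompsonSubgroupOf 2 T with hJ
  set S := {s | s ∈ (J.subgroupOf L).map q ∧
    ∃ w : ↥(omegaCenterOf (pCoreOf 2 L)), LTV (proj L) s w} with hSdef
  have hJL : J ≤ L := thompson_le_local hT hL
  suffices h : J ≤ ((closure S).comap q).map L.subtype by
    rintro _ ⟨g, hg, rfl⟩
    obtain ⟨g', hg', e⟩ := h hg
    have e' : g' = g := L.subtype_injective e
    rw [← e']; exact hg'
  refine thompsonSubgroupOf_le_iff.2 fun A hA a ha => ?_
  have hAJ := le_thompsonSubgroupOf hA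
  set a' : ↥L := ⟨a, hJL (hAJ ha)⟩
  refine ⟨a', ?_, rfl⟩
  show q a' ∈ closure S
  set Aq := (A.subgroupOf L).map q with hAq
  have hsq : ∀ x ∈ Aq, x * x = 1 := by
    rintro _ ⟨y, hy, rfl⟩
    rw [← map_mul, show y * y = 1 from Subtype.ext (mul_self_of_mem hA.elem hy), map_one]
  have hmem : proj L (q a') ∈ ((closure S) ⊓ Aq).map (proj L) := by
    have h := max_generated hZN hT hL hT1 hA
    have hin : (actL L).rangeRestrict a' ∈ (A.subgroupOf L).map (actL L).rangeRestrict :=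
      ⟨a', ha, rfl⟩
    rw [← h] at hin
    refine (closure_le _).2 ?_ hin
    rintro t ⟨⟨b, hb, rfl⟩, w, hw⟩
    refine ⟨q b, ⟨subset_closure ⟨⟨b, hAJ hb, rfl⟩, w, ?_, hw⟩, ⟨b, hb, rfl⟩⟩, rfl⟩
    exact hsq _ ⟨b, hb, rfl⟩
  obtain ⟨x, ⟨hx1, hx2⟩, hx⟩ := hmem
  rwa [lift_unique hS (hsq _ ⟨a', ha, rfl⟩) (hsq _ hx2) hx.symm]

end

end CfsgLib.JComponents
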