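import Mathlib
import Cfsg.Agent.Lib.CoprimeAction.Abelian

/-!
Transvections of an elementary abelian 2-group in a group with a self-centralising odd normal
subgroup: they fall into classes of three, distinct classes act independently, and best offenders
are generated by transvections.
-/

set_option autoImplicit false

namespace CfsgLib.JComponents

variable {X V : Type*} [Group X] [CommGroup V] [MulDistribMulAction X V]

/-- `t` is a transvection with centre `w`. -/
structure IsTV (t : X) (w : V) : Prop where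
  ne_one : w ≠ 1
  moves : ∀ v : V, t • v = v ∨ t • v = v * w
  nontriv : ∃ v : V, t • v ≠ v

/-- The conjugates of `a` under `F`. -/
def cl (F : Subgroup X) (a : X) : Set X := {x | ∃ f ∈ F, x = f * a * f⁻¹}

/-- The fixed points of a subgroup. -/
def fix (B : Subgroup X) : Subgroup V where
  carrier := {v | ∀ b ∈ B, b • v = v}
  one_mem' b _ := smul_one b
  mul_mem' hu hv b hb := by rw [smul_mul', hu b hb, hv b hb]
  inv_mem' hu b hb := by rw [smul_inv', hu b hb]

lemma mem_fix {B : Subgroup X} {v : V} : v ∈ fix B ↔ ∀ b ∈ B, b • v = v := Iff.rfl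

/-- Lagrange, relative form. -/
lemma card_mul_relIndex {G : Type*} [Group G] {H K : Subgroup G} (h : H ≤ K) :
    Nat.card H * H.relIndex K = Nat.card K := by
  rw [← Subgroup.relIndex_bot_left H, Subgroup.relIndex_mul_relIndex _ _ _ bot_le h,
    Subgroup.relIndex_bot_left]

/-- The ambient hypotheses: exponent two and a self-centralising odd normal subgroup. -/
structure Setting (V : Type*) [CommGroup V] {X : Type*} [Group X] (F : Subgroup X) : Prop where
  sq : ∀ v : V, v * v = 1
  normal : F.Normal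
  odd : Odd (Nat.card F)
  cent : Subgroup.centralizer (F : Set X) ≤ F

section basic

variable (h2 : ∀ v : V, v * v = 1)
include h2

omit [MulDistribMulAction X V] in
lemma mul_mul_self (u w : V) : u * w * w = u := by rw [mul_assoc, h2, mul_one]

omit [MulDistribMulAction X V] in
lemma cancel2 (u w : V) : u * (u * w) = w := by rw [← mul_assoc, h2, one_mul]

omit [MulDistribMulAction X V] in
lemma mul_eq_one_iff_eq' (u w : V) : u * w = 1 ↔ u = w :=
  ⟨fun h => by rw [← mul_mul_self h2 u w, h, one_mul], fun h => h ▸ h2 u⟩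

lemma IsTV.apply_center {t : X} {w : V} (h : IsTV t w) : t • w = w := by
  rcases h.moves w with e | e
  · exact e
  · exfalso
    rw [h2 w] at e
    exact h.ne_one (MulAction.injective t (e.trans (smul_one t).symm))

omit h2 in
lemma IsTV.unique {t : X} {w w' : V} (h : IsTV t w) (h' : IsTV t w') : w = w' := by
  obtain ⟨v, hv⟩ := h.nontriv
  rcases h.moves v with e | e
  · exact absurd e hv
  rcases h'.moves v with e' | e'
  · exact absurd e' hv
  exact mul_left_cancel (e.symm.trans e')

lemma IsTV.smul_smul {t : X} {w : V} (h : IsTV t w) (v : V) : t • t • v = v := by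
  rcases h.moves v with e | e
  · rw [e, e]
  · rw [e, smul_mul', e, h.apply_center h2, mul_mul_self h2]

omit h2 in
lemma IsTV.conj {t : X} {w : V} (h : IsTV t w) (g : X) : IsTV (g * t * g⁻¹) (g • w) := by
  refine ⟨fun e => h.ne_one (MulAction.injective g (e.trans (smul_one g).symm)), fun v => ?_, ?_⟩
  · rcases h.moves (g⁻¹ • v) with e | e
    · left; rw [mul_smul, mul_smul, e, smul_inv_smul]
    · right; rw [mul_smul, mul_smul, e, smul_mul', smul_inv_smul]
  · obtain ⟨v, hv⟩ := h.nontriv
    refine ⟨g • v, fun e => hv ?_⟩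
    rw [mul_smul, mul_smul, inv_smul_smul] at e
    exact MulAction.injective g e

variable [FaithfulSMul X V]

lemma IsTV.mul_self {t : X} {w : V} (h : IsTV t w) : t * t = 1 :=
  eq_of_smul_eq_smul fun v : V => by rw [mul_smul, h.smul_smul h2, one_smul]

lemma IsTV.inv_eq {t : X} {w : V} (h : IsTV t w) : t⁻¹ = t :=
  inv_eq_of_mul_eq_one_right (h.mul_self h2)

omit h2 in
lemma IsTV.orderOf_eq {t : X} {w : V} (h : IsTV t w) (h2 : ∀ v : V, v * v = 1) :
    orderOf t = 2 := by
  refine orderOf_eq_prime (by rw [pow_two, h.mul_self h2]) fun e => ?_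
  obtain ⟨v, hv⟩ := h.nontriv
  exact hv (by rw [e, one_smul])

omit h2 in
lemma commute_of_fix {s t : X} {u w : V} (hs : IsTV s u) (ht : IsTV t w)
    (h1 : s • w = w) (h3 : t • u = u) : Commute s t := by
  refine eq_of_smul_eq_smul fun v : V => ?_
  rw [mul_smul, mul_smul]
  rcases hs.moves v with e | e <;> rcases ht.moves v with e' | e' <;>
    simp [e, e', smul_mul', h1, h3, mul_comm, mul_left_comm]

lemma both_move {s t : X} {u w : V} (hs : IsTV s u) (ht : IsTV t w) (hodd : Odd (orderOf (s * t)))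
    (hne : s ≠ t) : s • w = w * u ∧ t • u = u * w := by
  have hstt : (s * t) * (s * t) = 1 → False := by
    intro h
    have h1 : orderOf (s * t) ∣ 2 := orderOf_dvd_of_pow_eq_one (by rw [pow_two, h])
    rcases (Nat.dvd_prime Nat.prime_two).1 h1 with h' | h'
    · exact hne (by rw [← ht.inv_eq h2]; exact eq_inv_of_mul_eq_one_left (orderOf_eq_one_iff.1 h'))
    · rw [h'] at hodd; exact absurd hodd (by decide)
  have hcomm : Commute s t → False := fun hc => hstt (by
    rw [hc.symm.mul_mul_mul_comm, hs.mul_self h2, ht.mul_self h2, one_mul])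
  have aux : ∀ {p q : X} {a b : V}, IsTV p a → IsTV q b → p • b = b → q • a = a * b →
      (p * q) ^ 4 = 1 := by
    intro p q a b hp hq hpb hqa
    have hp' : IsTV (q * p * q) (a * b) := by
      have := hp.conj q
      rwa [hq.inv_eq h2, hqa] at this
    have hc : Commute p (q * p * q) := commute_of_fix hp hp'
      (by rw [smul_mul', hp.apply_center h2, hpb]) (by
        rw [mul_smul, mul_smul, hqa, smul_mul', hp.apply_center h2, hpb, smul_mul', hqa,
          hq.apply_center h2, mul_mul_self h2])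
    calc (p * q) ^ 4 = (p * (q * p * q)) * (p * (q * p * q)) := by
          simp only [pow_succ, pow_zero, one_mul, mul_assoc]
      _ = (p * p) * ((q * p * q) * (q * p * q)) := hc.symm.mul_mul_mul_comm _ _
      _ = 1 := by rw [hp.mul_self h2, hp'.mul_self h2, one_mul]
  have key : (s * t) ^ 4 = 1 → False := by
    intro h
    have h1 : orderOf (s * t) ∣ 2 ^ 2 := orderOf_dvd_of_pow_eq_one h
    obtain ⟨k, -, hk⟩ := (Nat.dvd_prime_pow Nat.prime_two).1 h1
    rw [hk] at hodd
    cases k with
    | zero => exact hstt (by rw [orderOf_eq_one_iff.1 (hk.trans (pow_zero 2)), one_mul])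
    | succ k => exact Nat.not_even_iff_odd.2 hodd (by simp [pow_succ])
  rcases hs.moves w with e | e <;> rcases ht.moves u with e' | e'
  · exact (hcomm (commute_of_fix hs ht e e')).elim
  · exact (key (aux hs ht e e')).elim
  · refine (key ?_).elim
    have := aux ht hs e' e
    have h' : s * t = (t * s)⁻¹ := by rw [mul_inv_rev, hs.inv_eq h2, ht.inv_eq h2]
    rw [h', inv_pow, this, inv_one]
  · exact ⟨e, e'⟩

omit [FaithfulSMul X V] in
lemma center_ne {s t : X} {u w : V} (ht : IsTV t w) (h : t • u = u * w) : u ≠ w := fun e => by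
  rw [e, ht.apply_center h2, h2] at h
  exact ht.ne_one h

/-- The third transvection of a pair. -/
lemma third_isTV {a b : X} {u w : V} (ha : IsTV a u) (hb : IsTV b w) (hab : a • w = w * u) :
    IsTV (a * b * a) (w * u) := by
  have := hb.conj a
  rwa [ha.inv_eq h2, hab] at this

omit [FaithfulSMul X V] in
lemma third_smul {a b : X} {u w : V} (ha : IsTV a u) (hb : IsTV b w) (hab : a • w = w * u)
    (hba : b • u = u * w) (v : V) : (a * b * a) • v = v ↔ (a • v = v ↔ b • v = v) := by
  rw [mul_smul, mul_smul]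
  rcases ha.moves v with e | e <;> rcases hb.moves v with e' | e'
  · simp [e, e']
  · have hw : v * w ≠ v := fun h => hb.ne_one (mul_eq_left.1 h)
    have hwu : v * (w * u) ≠ v := fun h => center_ne (s := b) h2 hb hba
      ((mul_eq_one_iff_eq' h2 w u).1 (mul_eq_left.1 h)).symm
    simp [e, e', smul_mul', hab, hw, hwu]
  · have hu : v * u ≠ v := fun h => ha.ne_one (mul_eq_left.1 h)
    have hw : v * w ≠ v := fun h => hb.ne_one (mul_eq_left.1 h)
    have hwu : v * (w * u) ≠ v := fun h => center_ne (s := b) h2 hb hba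
      ((mul_eq_one_iff_eq' h2 w u).1 (mul_eq_left.1 h)).symm
    have h : a • b • (v * u) = v * (w * u) := by
      rw [smul_mul', e', hba, smul_mul', e, smul_mul', ha.apply_center h2, hab]
      simp [mul_assoc, mul_comm, mul_left_comm, h2, cancel2 h2]
    rw [e, h]
    simp [e', hu, hwu]
  · have hu : v * u ≠ v := fun h => ha.ne_one (mul_eq_left.1 h)
    have hw : v * w ≠ v := fun h => hb.ne_one (mul_eq_left.1 h)
    have h : a • b • (v * u) = v := by
      rw [smul_mul', e', hba, smul_mul', smul_mul', smul_mul', e, ha.apply_center h2, hab]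
      simp [mul_assoc, mul_comm, mul_left_comm, h2, cancel2 h2]
    rw [e, h]
    simp [e', hu, hw]

/-- If both `a`, `b` move each other's centre, `e = ab` cycles the centres. -/
lemma cycle_center {a b : X} {u w : V} (ha : IsTV a u) (hb : IsTV b w) (hab : a • w = w * u)
    (hba : b • u = u * w) : (a * b) • u = w ∧ (a * b) • w = w * u := by
  constructor
  · rw [mul_smul, hba, smul_mul', ha.apply_center h2, hab, mul_comm w u, ← mul_assoc, h2, one_mul]
  · rw [mul_smul, hb.apply_center h2, hab]

/-- Every vector is congruent modulo the plane to one fixed by `a` and `b`. -/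
lemma exists_fixed {a b : X} {u w : V} (ha : IsTV a u) (hb : IsTV b w) (hab : a • w = w * u)
    (hba : b • u = u * w) (v : V) :
    ∃ x : V, a • (v * x) = v * x ∧ b • (v * x) = v * x ∧
      (x = 1 ∨ x = u ∨ x = w ∨ x = w * u) ∧ ((a • v = v ∧ (x = 1 ∨ x = u)) ∨
        (a • v = v * u ∧ (x = w ∨ x = w * u))) := by
  rcases ha.moves v with e | e <;> rcases hb.moves v with e' | e'
  · exact ⟨1, by simpa using e, by simpa using e', .inl rfl, .inl ⟨e, .inl rfl⟩⟩
  · refine ⟨u, by rw [smul_mul', e, ha.apply_center h2], ?_, .inr (.inl rfl), .inl ⟨e, .inr rfl⟩⟩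
    rw [smul_mul', e', hba, mul_comm u w, ← mul_assoc, mul_mul_self h2]
  · refine ⟨w, ?_, by rw [smul_mul', e', hb.apply_center h2], .inr (.inr (.inl rfl)),
      .inr ⟨e, .inl rfl⟩⟩
    rw [smul_mul', e, hab, mul_comm w u, ← mul_assoc, mul_mul_self h2]
  · refine ⟨w * u, ?_, ?_, .inr (.inr (.inr rfl)), .inr ⟨e, .inr rfl⟩⟩
    · rw [smul_mul', e, smul_mul', hab, ha.apply_center h2, mul_mul_self h2, mul_assoc,
        mul_comm u w]
    · rw [smul_mul', e', smul_mul', hb.apply_center h2, hba]
      rw [mul_comm u w, ← mul_assoc w, h2, one_mul, mul_comm w u, ← mul_assoc, mul_comm v w,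
        mul_comm v u]
      simp [mul_assoc, mul_comm, mul_left_comm, h2, cancel2 h2]

end basic

section setting

variable [FaithfulSMul X V] {F : Subgroup X} (hS : Setting V F)
include hS

omit [FaithfulSMul X V] [MulDistribMulAction X V] in
lemma self_mem_cl (a : X) : a ∈ cl F a := ⟨1, F.one_mem, by group⟩

omit [FaithfulSMul X V] [MulDistribMulAction X V] in
lemma cl_eq_of_mem {a b : X} (h : b ∈ cl F a) : cl F b = cl F a := by
  obtain ⟨f, hf, rfl⟩ := h
  ext x
  constructor
  · rintro ⟨g, hg, rfl⟩; exact ⟨g * f, F.mul_mem hg hf, by group⟩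
  · rintro ⟨g, hg, rfl⟩; exact ⟨g * f⁻¹, F.mul_mem hg (F.inv_mem hf), by group⟩

omit [FaithfulSMul X V] in
lemma exists_center {a x : X} {u : V} (ha : IsTV a u) (hx : x ∈ cl F a) :
    ∃ w : V, IsTV x w := by
  obtain ⟨f, -, rfl⟩ := hx
  exact ⟨_, ha.conj f⟩

lemma mul_mem_of_mem_cl {a b c : X} {u : V} (ha : IsTV a u) (hb : b ∈ cl F a) (hc : c ∈ cl F a) :
    b * c ∈ F := by
  obtain ⟨f, hf, rfl⟩ := hb
  obtain ⟨g, hg, rfl⟩ := hc
  have h := F.mul_mem hf (F.mul_mem (hS.normal.conj_mem _ (F.mul_mem (F.inv_mem hf) hg) a)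
    (F.inv_mem hg))
  rw [ha.inv_eq hS.sq] at h
  convert h using 1
  group

lemma odd_orderOf_mul {a b c : X} {u : V} (ha : IsTV a u) (hb : b ∈ cl F a) (hc : c ∈ cl F a) :
    Odd (orderOf (b * c)) :=
  Odd.of_dvd_nat hS.odd (Subgroup.orderOf_dvd_natCard F (mul_mem_of_mem_cl hS ha hb hc))

lemma exists_partner [Finite X] {a : X} {u : V} (ha : IsTV a u) :
    ∃ b ∈ cl F a, ∃ w : V, b ≠ a ∧ IsTV b w ∧ a • w = w * u ∧ b • u = u * w := by
  obtain ⟨f, hf, hne⟩ : ∃ f ∈ F, f * a * f⁻¹ ≠ a := by
    by_contra! hall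
    have haC : a ∈ F := hS.cent (Subgroup.mem_centralizer_iff.2 fun f hf =>
      mul_inv_eq_iff_eq_mul.1 (hall f hf))
    have h2 := Odd.of_dvd_nat hS.odd (Subgroup.orderOf_dvd_natCard F haC)
    rw [ha.orderOf_eq hS.sq] at h2
    exact absurd h2 (by decide)
  have hb : f * a * f⁻¹ ∈ cl F a := ⟨f, hf, rfl⟩
  obtain ⟨h1, h2⟩ := both_move hS.sq ha (ha.conj f)
    (odd_orderOf_mul hS ha (self_mem_cl hS a) hb) hne.symm
  exact ⟨_, hb, _, hne, ha.conj f, h1, h2⟩

lemma third_mem {a b : X} {u : V} (ha : IsTV a u) (hb : b ∈ cl F a) : a * b * a ∈ cl F a := by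
  obtain ⟨f, hf, rfl⟩ := hb
  refine ⟨a * f * a⁻¹, hS.normal.conj_mem f hf a, ?_⟩
  rw [ha.inv_eq hS.sq, mul_inv_rev, mul_inv_rev, ha.inv_eq hS.sq]
  calc a * (f * a * f⁻¹) * a = a * f * (a * a) * a * (a * a) * f⁻¹ * a := by
        rw [ha.mul_self hS.sq]; group
    _ = a * f * a * a * (a * (f⁻¹ * a)) := by
        simp only [mul_assoc, ← mul_assoc a a, ha.mul_self hS.sq, one_mul]

lemma moves_of_mem {a b : X} {u w : V} (ha : IsTV a u) (hb : b ∈ cl F a) (hbw : IsTV b w)
    (hne : b ≠ a) : a • w = w * u ∧ b • u = u * w :=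
  both_move hS.sq ha hbw (odd_orderOf_mul hS ha (self_mem_cl hS a) hb) hne.symm

lemma cl_subset {a b : X} {u : V} (ha : IsTV a u) (hb : b ∈ cl F a) (hne : b ≠ a) {c : X}
    (hc : c ∈ cl F a) : c = a ∨ c = b ∨ c = a * b * a := by
  obtain ⟨w, hbw⟩ := exists_center hS ha hb
  obtain ⟨z, hcz⟩ := exists_center hS ha hc
  by_contra! h
  obtain ⟨hca, hcb, hcd⟩ := h
  obtain ⟨hab, hba⟩ := moves_of_mem hS ha hb hbw hne
  obtain ⟨haz, hcu⟩ := moves_of_mem hS ha hc hcz hca
  obtain ⟨hbz, hcw⟩ := both_move hS.sq hbw hcz (odd_orderOf_mul hS ha hb hc) (Ne.symm hcb)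
  have hd := third_isTV hS.sq ha hbw hab
  obtain ⟨h1, -⟩ := both_move hS.sq hcz hd (odd_orderOf_mul hS ha hc (third_mem hS ha hb)) hcd
  rw [smul_mul', hcw, hcu, mul_comm u z, ← mul_assoc, mul_mul_self hS.sq] at h1
  exact hcz.ne_one (mul_eq_left.1 h1.symm)

omit hS in
lemma eq_of_center_eq (h2 : ∀ v : V, v * v = 1) {a b c : X} {u w : V} (ha : IsTV a u)
    (hb : IsTV b w) (hab : a • w = w * u) (hba : b • u = u * w) (hc : IsTV c u)
    (hvan : ∀ v : V, a • v = v → b • v = v → c • v = v) : c = a := by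
  refine eq_of_smul_eq_smul fun v : V => ?_
  have hcw : c • w = w * u := by
    rcases hc.moves w with e | e
    · exfalso
      obtain ⟨v, hv⟩ := hc.nontriv
      obtain ⟨x, hxa, hxb, hx, -⟩ := exists_fixed h2 ha hb hab hba v
      have h := hvan _ hxa hxb
      rw [smul_mul'] at h
      refine hv (mul_right_cancel (b := x) ?_)
      rcases hx with rfl | rfl | rfl | rfl <;>
        simpa [smul_mul', e, hc.apply_center h2] using h
    · exact e
  obtain ⟨x, hxa, hxb, -, hx⟩ := exists_fixed h2 ha hb hab hba v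
  have h := hvan _ hxa hxb
  rw [smul_mul'] at h hxa
  refine mul_right_cancel (b := c • x) (h.trans ?_)
  rw [← hxa]
  congr 1
  rcases hx with ⟨-, rfl | rfl⟩ | ⟨-, rfl | rfl⟩ <;>
    simp [smul_mul', hcw, hab, hc.apply_center h2, ha.apply_center h2]

lemma dichotomy [Finite X] {a c : X} {u z : V} (ha : IsTV a u) (hc : IsTV c z) :
    c ∈ cl F a ∨ (a • z = z ∧ c • u = u) := by
  have h2 := hS.sq
  obtain ⟨b, hb, w, hne, hbw, hab, hba⟩ := exists_partner hS ha
  have heF : a * b ∈ F := mul_mem_of_mem_cl hS ha (self_mem_cl hS a) hb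
  obtain ⟨hu, hw⟩ := cycle_center h2 ha hbw hab hba
  generalize hedef : a * b = e at heF hu hw
  by_cases hfix : e * c * e⁻¹ = c
  · right
    have hz : e • z = z := (hfix ▸ hc.conj e).unique hc
    have haz : a • z = z := by
      have h1 : b • z = a • z := by
        have := congrArg (a • ·) hz
        rwa [← hedef, mul_smul, ha.smul_smul h2] at this
      rcases ha.moves z with e1 | e1
      · exact e1
      rcases hbw.moves z with e2 | e2
      · rw [e1, e2] at h1; exact absurd (mul_eq_left.1 h1.symm) ha.ne_one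
      · rw [e1, e2] at h1
        exact absurd (mul_left_cancel h1).symm (center_ne (s := a) h2 hbw hba)
    refine ⟨haz, ?_⟩
    have hcomm : ∀ v : V, c • e • v = e • c • v := fun v => by
      rw [← mul_smul, ← mul_smul, ← mul_inv_eq_iff_eq_mul.1 hfix]
    rcases hc.moves u with e1 | e1
    · exact e1
    exfalso
    have hcw : c • w = w * z := by rw [← hu, hcomm, e1, smul_mul', hz]
    have h' : c • (w * u) = w * u * z := by rw [← hw, hcomm, hcw, smul_mul', hz]
    rw [smul_mul', e1, hcw, mul_mul_mul_comm, h2, mul_one] at h'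
    exact hc.ne_one (mul_eq_left.1 h'.symm)
  · left
    have hc' := hc.conj e
    have hc'cl : e * c * e⁻¹ ∈ cl F c := ⟨e, heF, rfl⟩
    obtain ⟨m1, m2⟩ := moves_of_mem hS hc hc'cl hc' hfix
    have hc2 := hc'.conj e
    have hc2cl : e * (e * c * e⁻¹) * e⁻¹ ∈ cl F c :=
      ⟨e * e, F.mul_mem heF heF, by group⟩
    have he3 : e * e * e = 1 := eq_of_smul_eq_smul fun v : V => by
      obtain ⟨x, hxa, hxb, hx, -⟩ := exists_fixed h2 ha hbw hab hba v
      have hev : e • (v * x) = v * x := by rw [← hedef, mul_smul, hxb, hxa]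
      have hex : e • e • e • x = x := by
        rcases hx with rfl | rfl | rfl | rfl <;>
          simp [smul_mul', hu, hw, mul_assoc, mul_comm, mul_left_comm, h2, cancel2 h2]
      rw [one_smul, mul_smul, mul_smul]
      refine mul_right_cancel (b := e • e • e • x) ?_
      rw [← smul_mul', ← smul_mul', ← smul_mul', hev, hev, hev, hex]
    have hthird : e * (e * c * e⁻¹) * e⁻¹ = c * (e * c * e⁻¹) * c := by
      rcases cl_subset hS hc hc'cl hfix hc2cl with h | h | h
      · exfalso
        refine hfix ?_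
        calc e * c * e⁻¹ = e * (e * (e * c * e⁻¹) * e⁻¹) * e⁻¹ := by rw [h]
          _ = (e * e * e) * c * (e * e * e)⁻¹ := by group
          _ = c := by rw [he3]; group
      · exact absurd (mul_left_cancel (mul_right_cancel h)) hfix
      · exact h
    rw [hthird] at hc2
    have hzz : e • e • z = (e • z) * z := hc2.unique (third_isTV h2 hc hc' m1)
    -- the centre of `c` lies in the plane of `a` and `b`
    obtain ⟨x, hxa, hxb, hx, -⟩ := exists_fixed h2 ha hbw hab hba z
    have hez : e • (z * x) = z * x := by rw [← hedef, mul_smul, hxb, hxa]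
    have hex : e • e • x = (e • x) * x := by
      rcases hx with rfl | rfl | rfl | rfl <;>
        simp [smul_mul', hu, hw, mul_assoc, mul_comm, mul_left_comm, h2, cancel2 h2]
    have hzx : z = x := by
      rw [← mul_eq_one_iff_eq' h2]
      have h1 : e • e • (z * x) = e • (z * x) * (z * x) := by
        simp only [smul_mul', hzz, hex]; simp [mul_assoc, mul_comm, mul_left_comm, h2, cancel2 h2]
      rw [hez, hez, h2] at h1
      exact h1
    have hvan : ∀ v : V, a • v = v → b • v = v → c • v = v := by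
      intro v hav hbv
      have hev : e • v = v := by rw [← hedef, mul_smul, hbv, hav]
      have hev' : e⁻¹ • v = v := inv_smul_eq_iff.2 hev.symm
      rcases hc.moves v with e1 | e1
      · exact e1
      have h1 : (e * c * e⁻¹) • v ≠ v := by
        rw [mul_smul, mul_smul, hev', e1, smul_mul', hev]
        exact fun h => hc'.ne_one (mul_eq_left.1 h)
      have h2' : (c * (e * c * e⁻¹) * c) • v ≠ v := by
        rw [← hthird, mul_smul, mul_smul, hev', mul_smul, mul_smul, hev', e1, smul_mul', hev,
          smul_mul', hev]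
        exact fun h => hc.ne_one
          (MulAction.injective e (MulAction.injective e
            ((mul_eq_left.1 h).trans (by simp only [smul_one]))))
      exact absurd ((third_smul h2 hc hc' m1 m2 v).2
        (iff_of_false (fun h => hc.ne_one (mul_eq_left.1 (e1.symm.trans h))) h1)) h2'
    subst hzx
    rcases hx with rfl | rfl | rfl | rfl
    · exact absurd rfl hc.ne_one
    · exact (eq_of_center_eq h2 ha hbw hab hba hc hvan) ▸ self_mem_cl hS a
    · exact (eq_of_center_eq h2 hbw ha hba hab hc (fun v h h' => hvan v h' h)) ▸ hb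
    · have hd := third_isTV h2 ha hbw hab
      have hdm : a * b * a ≠ a := fun h => hne (by
        calc b = (a * a) * b * (a * a) := by rw [ha.mul_self h2]; group
          _ = a * (a * b * a) * a := by group
          _ = a := by rw [h, ha.mul_self h2, one_mul])
      obtain ⟨n1, n2⟩ := moves_of_mem hS ha (third_mem hS ha hb) hd hdm
      refine (eq_of_center_eq h2 hd ha n2 n1 hc fun v h h' => hvan v h' ?_) ▸ third_mem hS ha hb
      exact ((third_smul h2 ha hbw hab hba v).1 h).1 h'

lemma commute_of_not_mem [Finite X] {a c : X} {u z : V} (ha : IsTV a u) (hc : IsTV c z)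
    (h : c ∉ cl F a) : Commute a c := by
  obtain ⟨h1, h2⟩ := (dichotomy hS ha hc).resolve_left h
  exact commute_of_fix ha hc h1 h2

lemma eq_of_mem_of_commute {a c : X} {u : V} (ha : IsTV a u) (hc : c ∈ cl F a)
    (hcomm : Commute a c) : c = a := by
  by_contra hne
  obtain ⟨z, hz⟩ := exists_center hS ha hc
  obtain ⟨h1, -⟩ := moves_of_mem hS ha hc hz hne
  have h := hz.conj a
  rw [hcomm.eq, mul_inv_cancel_right, h1] at h
  exact ha.ne_one (mul_eq_left.1 (h.unique hz))

lemma fix_partner [Finite X] {a b c : X} {u w z : V} (ha : IsTV a u) (hc : IsTV c z)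
    (h : c ∉ cl F a) (hb : b ∈ cl F a) (hbw : IsTV b w) : c • w = w ∧ b • z = z := by
  obtain ⟨h1, h2⟩ := (dichotomy hS hbw hc).resolve_left (by rwa [cl_eq_of_mem hS hb])
  exact ⟨h2, h1⟩

omit [FaithfulSMul X V] in
/-- An element with a fixed-point hyperplane is a transvection. -/
lemma isTV_of_index {x : X} {U : Subgroup V} (hU : ∀ v : V, v ∈ U ↔ x • v = v)
    (hidx : U.index = 2) : ∃ w : V, IsTV x w := by
  obtain ⟨v₀, hv₀⟩ := Subgroup.index_eq_two_iff.1 hidx
  have hv₀U : x • v₀ ≠ v₀ := by
    rw [Ne, ← hU]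
    rcases hv₀ 1 with ⟨h, h'⟩ | ⟨h, h'⟩
    · rw [one_mul] at h; exact absurd U.one_mem h'
    · rwa [one_mul] at h'
  refine ⟨(x • v₀) * v₀, fun h => hv₀U ((mul_eq_one_iff_eq' hS.sq _ _).1 h), fun v => ?_,
    v₀, hv₀U⟩
  rcases hv₀ v with ⟨h, -⟩ | ⟨h, -⟩
  · right
    rw [hU, smul_mul'] at h
    calc x • v = x • v * (x • v₀ * x • v₀) := by rw [hS.sq, mul_one]
      _ = v * v₀ * x • v₀ := by rw [← mul_assoc, h]
      _ = v * (x • v₀ * v₀) := by simp [mul_assoc, mul_comm, mul_left_comm]
  · left; rwa [← hU]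

/-- `A × B` lemma. -/
lemma eq_one_of_fix_fix {B : Subgroup X} (hB2 : ∀ b ∈ B, b * b = 1)
    (hBc : ∀ b ∈ B, ∀ c ∈ B, Commute b c) {g : X} (hg : Odd (orderOf g))
    (hgB : ∀ b ∈ B, Commute g b) (hfix : ∀ v ∈ (fix B : Subgroup V), g • v = v) [Finite X] :
    g = 1 := by
  classical
  have h2 := hS.sq
  by_contra hne
  obtain ⟨v, hv⟩ : ∃ v : V, g • v ≠ v := by
    by_contra! h
    exact hne (eq_of_smul_eq_smul fun v : V => by rw [h v, one_smul])
  have key : ∀ s : Finset X, (↑s ⊆ (B : Set X)) →
      ∃ v : V, g • v ≠ v ∧ ∀ b ∈ s, g • (b • v * v) = b • v * v := by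
    intro s
    induction s using Finset.induction_on with
    | empty => exact fun _ => ⟨v, hv, by simp⟩
    | @insert b s _ ih =>
      intro hs
      rw [Finset.coe_insert, Set.insert_subset_iff] at hs
      obtain ⟨v, hv, hvs⟩ := ih hs.2
      by_cases hb : g • (b • v * v) = b • v * v
      · exact ⟨v, hv, fun c hc => (Finset.mem_insert.1 hc).elim (fun e => e ▸ hb) (hvs c)⟩
      refine ⟨_, hb, fun c hc => ?_⟩
      rcases Finset.mem_insert.1 hc with rfl | hc
      · have e : c • (c • v * v) * (c • v * v) = 1 := by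
          rw [smul_mul', ← mul_smul, hB2 _ hs.1, one_smul, mul_comm v, h2]
        rw [e, smul_one]
      · have e : c • (b • v * v) * (b • v * v) = b • (c • v * v) * (c • v * v) := by
          rw [smul_mul', smul_mul', ← mul_smul, ← mul_smul, (hBc _ (hs.2 hc) _ hs.1).eq]
          simp [mul_assoc, mul_comm, mul_left_comm, h2, cancel2 h2]
        rw [e, smul_mul', ← mul_smul, (hgB _ hs.1).eq, mul_smul, hvs c hc]
  haveI : Fintype X := Fintype.ofFinite X
  obtain ⟨v, hv, hvs⟩ := key (Finset.univ.filter (· ∈ B)) (by intro x; simp)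
  have hn : g • v * v ∈ (fix B : Subgroup V) := mem_fix.2 fun b hb => by
    have h := hvs b (by simp [hb])
    rw [smul_mul'] at h
    rw [smul_mul', ← mul_smul, ← (hgB b hb).eq, mul_smul]
    calc g • b • v * b • v = (g • b • v * g • v) * (g • v * b • v) := by
          simp [mul_assoc, mul_comm, mul_left_comm, h2, cancel2 h2]
      _ = g • v * v := by rw [h]; simp [mul_assoc, mul_comm, mul_left_comm, h2, cancel2 h2]
  have hgn := hfix _ hn
  have hpow : ∀ k : ℕ, g ^ k • v = if Even k then v else g • v := by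
    intro k
    induction k with
    | zero => simp
    | succ k ih =>
      rw [pow_succ', mul_smul, ih]
      by_cases hk : Even k
      · simp [hk, Nat.even_add_one]
      · rw [smul_mul'] at hgn
        simp only [hk, if_false, Nat.even_add_one, not_false_iff, if_true]
        calc g • g • v = g • g • v * (g • v * g • v) := by rw [h2, mul_one]
          _ = g • g • v * g • v * g • v := by rw [mul_assoc]
          _ = g • v * v * g • v := by rw [hgn]
          _ = v := by simp [mul_assoc, mul_comm, mul_left_comm, h2, cancel2 h2]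
  have := hpow (orderOf g)
  rw [pow_orderOf_eq_one, one_smul, if_neg (Nat.not_even_iff_odd.2 hg)] at this
  exact hv this.symm

/-- Best offenders are generated by transvections. -/
theorem offender [Finite X] [Finite V] (A : Subgroup X) (hA2 : ∀ a ∈ A, a * a = 1)
    (hbest : ∀ B ≤ A, Nat.card B * Nat.card (fix B : Subgroup V) ≤
      Nat.card A * Nat.card (fix A : Subgroup V)) :
    Nat.card A * Nat.card (fix A : Subgroup V) = Nat.card V ∧
      Subgroup.closure {t | t ∈ A ∧ ∃ w : V, IsTV t w} = A := by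
  classical
  induction hn : Nat.card A using Nat.strong_induction_on generalizing A with
  | _ n ih =>
  have h2 := hS.sq
  subst hn
  have hcomm : ∀ b ∈ A, ∀ c ∈ A, Commute b c := fun b hb c hc => by
    have h1 := hA2 _ (A.mul_mem hb hc)
    calc b * c = b * c * ((c * b) * (c * b)) := by rw [hA2 _ (A.mul_mem hc hb), mul_one]
      _ = b * (c * c) * b * (c * b) := by group
      _ = c * b := by rw [hA2 c hc, mul_one, hA2 b hb, one_mul]
  rcases eq_or_ne A ⊥ with rfl | hA1
  · refine ⟨?_, le_antisymm ((Subgroup.closure_le _).2 fun t ht => ht.1) bot_le⟩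
    rw [Subgroup.card_bot, one_mul, show (fix (⊥ : Subgroup X) : Subgroup V) = ⊤ from
      eq_top_iff.2 fun v _ => mem_fix.2 fun b hb => by rw [Subgroup.mem_bot.1 hb, one_smul],
      Subgroup.card_top]
  -- a hyperplane with new fixed points
  set P : Subgroup X → Prop := fun B => B ≤ A ∧ ∃ f ∈ F, (∀ b ∈ B, Commute f b) ∧
    ∃ a ∈ A, ¬ Commute f a with hP
  have hbot : P ⊥ := by
    refine ⟨bot_le, ?_⟩
    by_contra! hall
    obtain ⟨a, ha, ha1⟩ := (Subgroup.ne_bot_iff_exists_ne_one).1 hA1 |> fun ⟨x, hx⟩ =>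
      (⟨x.1, x.2, fun e => hx (Subtype.ext e)⟩ : ∃ a, a ∈ A ∧ a ≠ 1)
    have haF : a ∈ F := hS.cent (Subgroup.mem_centralizer_iff.2 fun f hf =>
      (hall f hf (fun b hb => by rw [Subgroup.mem_bot.1 hb]; exact Commute.one_right f) a ha).eq)
    have h1 := Odd.of_dvd_nat hS.odd (Subgroup.orderOf_dvd_natCard F haF)
    rw [orderOf_eq_prime (by rw [pow_two, hA2 a ha]) ha1] at h1
    exact absurd h1 (by decide)
  obtain ⟨B, -, hBP⟩ := Finite.exists_le_maximal (p := P) hbot
  obtain ⟨⟨hBA, f, hfF, hfB, a₀, ha₀, hfa⟩, hBmax⟩ := hBP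
  have ha₀B : a₀ ∉ B := fun h => hfa (hfB _ h)
  have hcover : ∀ a ∈ A, a ∈ B ∨ a₀ * a ∈ B := by
    by_contra! hcon
    obtain ⟨a₁, ha₁, ha₁B, ha₀₁⟩ := hcon
    set K : Subgroup X := F ⊓ Subgroup.centralizer (B : Set X) with hK
    set A' : Subgroup X := Subgroup.closure {a₀, a₁} with hA'
    have hA'A : A' ≤ A := by rw [hA', Subgroup.closure_le]; simp [Set.insert_subset_iff, ha₀, ha₁]
    haveI : IsMulCommutative ↥A' := ⟨⟨fun x y => Subtype.ext (hcomm _ (hA'A x.2) _ (hA'A y.2)).eq⟩⟩
    have hnc : ¬ IsCyclic ↥A' := by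
      intro hcyc
      obtain ⟨g, hg⟩ := hcyc.exists_generator
      have h01 : ∀ x : ↥A', x = 1 ∨ x = g := by
        intro x
        obtain ⟨k, rfl⟩ := hg x
        have hg2 : g ^ (2 : ℤ) = 1 := Subtype.ext (by simpa [zpow_two, pow_two] using hA2 _ (hA'A g.2))
        rcases Int.even_or_odd k with ⟨m, rfl⟩ | ⟨m, rfl⟩
        · left; simp only [← two_mul, zpow_mul, hg2, one_zpow]
        · right; simp only [zpow_add_one, zpow_mul, hg2, one_zpow, one_mul]
      have h0 := h01 ⟨a₀, Subgroup.subset_closure (by simp)⟩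
      have h1 := h01 ⟨a₁, Subgroup.subset_closure (by simp)⟩
      rcases h0 with h0 | h0
      · exact ha₀B (by rw [show a₀ = 1 from congrArg Subtype.val h0]; exact B.one_mem)
      rcases h1 with h1 | h1
      · exact ha₁B (by rw [show a₁ = 1 from congrArg Subtype.val h1]; exact B.one_mem)
      refine ha₀₁ ?_
      rw [show a₁ = a₀ from congrArg Subtype.val (h1.trans h0.symm), hA2 _ ha₀]
      exact B.one_mem
    have hA'K : A' ≤ Subgroup.normalizer (K : Set X) := by
      intro a ha
      refine CfsgLib.CoprimeAction.mem_normalizer_of_conj_mem fun x hx => ⟨hS.normal.conj_mem x hx.1 a, ?_⟩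
      refine Subgroup.mem_centralizer_iff.2 fun b hb => ?_
      have hab : Commute b a := (hcomm _ (hBA hb) _ (hA'A ha))
      exact ((hab.mul_right (Subgroup.mem_centralizer_iff.1 hx.2 b hb)).mul_right hab.inv_right).eq
    have hcop : (Nat.card A').Coprime (Nat.card K) := by
      have h2g : IsPGroup 2 ↥A' := fun x => ⟨1, Subtype.ext (by
        simpa [pow_two] using hA2 _ (hA'A x.2))⟩
      obtain ⟨k, hk⟩ := IsPGroup.iff_card.1 h2g
      rw [hk]
      exact Nat.Coprime.pow_left _ ((Nat.coprime_two_left).2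
        (Odd.of_dvd_nat hS.odd (Subgroup.card_dvd_of_le inf_le_left)))
    have hle := CfsgLib.CoprimeAction.le_of_centralizers (H := Subgroup.centralizer (A : Set X))
      hnc hA'K hcop (fun a ha ha1 => ?_)
    · exact hfa (Subgroup.mem_centralizer_iff.1 (hle ⟨hfF, Subgroup.mem_centralizer_iff.2
        fun b hb => (hfB b hb).symm.eq⟩) a₀ ha₀).symm
    intro x hx
    by_contra hxA
    have hnA : ∃ y ∈ A, ¬ Commute x y := by
      by_contra! h
      exact hxA (Subgroup.mem_centralizer_iff.2 fun y hy => (h y hy).symm.eq)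
    have hle' : B ⊔ Subgroup.zpowers a ≤ A := sup_le hBA (Subgroup.zpowers_le.2 (hA'A ha))
    have hcx : ∀ b ∈ B ⊔ Subgroup.zpowers a, Commute x b := by
      have hle'' : B ⊔ Subgroup.zpowers a ≤ Subgroup.centralizer ({x} : Set X) := sup_le
        (fun b hb => Subgroup.mem_centralizer_singleton_iff.2
          (Subgroup.mem_centralizer_iff.1 hx.1.2 b hb))
        (Subgroup.zpowers_le.2 (Subgroup.mem_centralizer_singleton_iff.2
          (Subgroup.mem_centralizer_singleton_iff.1 hx.2).symm))
      exact fun b hb => (Subgroup.mem_centralizer_singleton_iff.1 (hle'' hb)).symm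
    have haB : a ∈ B := hBmax ⟨hle', x, hx.1.1, hcx, hnA⟩ le_sup_left
      (le_sup_right (a := B) (Subgroup.mem_zpowers a))
    have hz : a = a₀ ∨ a = a₁ ∨ a = a₀ * a₁ := by
      have hsub : ∀ y ∈ A', y = 1 ∨ y = a₀ ∨ y = a₁ ∨ y = a₀ * a₁ := by
        intro y hy
        rw [hA'] at hy
        have c01 := (hcomm _ ha₀ _ ha₁).eq
        induction hy using Subgroup.closure_induction with
        | mem y hy => rcases hy with rfl | rfl <;> simp
        | one => simp
        | mul y z _ _ hy hz =>
          have q0 := hA2 _ ha₀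
          have q1 := hA2 _ ha₁
          have r0 : a₀ * (a₀ * a₁) = a₁ := by rw [← mul_assoc, q0, one_mul]
          have r1 : a₁ * (a₀ * a₁) = a₀ := by rw [c01, ← mul_assoc, q1, one_mul]
          have r2 : a₀ * a₁ * a₀ = a₁ := by rw [mul_assoc, ← c01, r0]
          have r3 : a₀ * a₁ * a₁ = a₀ := by rw [mul_assoc, q1, mul_one]
          have r4 : a₀ * a₁ * (a₀ * a₁) = 1 := hA2 _ (A.mul_mem ha₀ ha₁)
          rcases hy with rfl | rfl | rfl | rfl <;> rcases hz with rfl | rfl | rfl | rfl <;>
            simp [q0, q1, r0, r1, r2, r3, r4, ← c01]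
        | inv y hy' hy =>
          have : y⁻¹ = y := inv_eq_of_mul_eq_one_right (hA2 _ (hA'A (hA' ▸ hy')))
          rwa [this]
      rcases hsub a ha with h | h | h | h
      · exact absurd h ha1
      · exact .inl h
      · exact .inr (.inl h)
      · exact .inr (.inr h)
    rcases hz with rfl | rfl | rfl
    · exact ha₀B haB
    · exact ha₁B haB
    · exact ha₀₁ haB
  have hidx : B.relIndex A = 2 := by
    rw [Subgroup.relIndex, Subgroup.index_eq_two_iff]
    refine ⟨⟨a₀, ha₀⟩, fun y => ?_⟩
    simp only [Subgroup.mem_subgroupOf, Subgroup.coe_mul]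
    rw [xor_iff_or_and_not_and]
    refine ⟨?_, fun ⟨h, h'⟩ => ha₀B ?_⟩
    · rcases hcover y y.2 with h | h
      · exact .inr h
      · exact .inl (by rw [(hcomm _ y.2 _ ha₀).eq]; exact h)
    · have := B.mul_mem (B.inv_mem h') h
      rwa [inv_mul_cancel_left] at this
  have hcard : 2 * Nat.card B = Nat.card A := by
    rw [← hidx, mul_comm, card_mul_relIndex hBA]
  have hfixle : (fix A : Subgroup V) ≤ fix B := fun v hv b hb => hv b (hBA hb)
  have hfixne : (fix A : Subgroup V) ≠ fix B := by
    intro heq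
    have hgF : f * a₀ * f⁻¹ * a₀ ∈ F := by
      have h := F.mul_mem hfF (hS.normal.conj_mem _ (F.inv_mem hfF) a₀)
      rw [inv_eq_of_mul_eq_one_right (hA2 _ ha₀)] at h
      convert h using 1
      group
    have hgB : ∀ b ∈ B, Commute (f * a₀ * f⁻¹ * a₀) b := fun b hb =>
      (((hfB b hb).mul_left (hcomm _ ha₀ _ (hBA hb))).mul_left (hfB b hb).inv_left).mul_left
        (hcomm _ ha₀ _ (hBA hb))
    have hg1 := eq_one_of_fix_fix hS (fun b hb => hA2 b (hBA hb))
      (fun b hb c hc => hcomm _ (hBA hb) _ (hBA hc))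
      (Odd.of_dvd_nat hS.odd (Subgroup.orderOf_dvd_natCard F hgF)) hgB (fun v hv => by
        have hv' : v ∈ (fix A : Subgroup V) := heq ▸ hv
        have hfv : f⁻¹ • v ∈ (fix A : Subgroup V) := heq ▸ mem_fix.2 fun b hb => by
          rw [← mul_smul, ← (hfB b hb).inv_left.eq, mul_smul, hv b hb]
        rw [mul_smul, mul_smul, mul_smul, hv' a₀ ha₀, hfv a₀ ha₀, smul_inv_smul])
    refine hfa ?_
    have h3 : f * a₀ * f⁻¹ = a₀ := by
      rw [← inv_eq_of_mul_eq_one_right (hA2 _ ha₀)] at hg1 ⊢
      rw [eq_inv_of_mul_eq_one_left hg1]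
      simp [inv_eq_of_mul_eq_one_right (hA2 _ ha₀)]
    exact mul_inv_eq_iff_eq_mul.1 h3
  have hlt : 2 * Nat.card (fix A : Subgroup V) ≤ Nat.card (fix B : Subgroup V) := by
    rw [← card_mul_relIndex hfixle, mul_comm]
    refine Nat.mul_le_mul_left _ ?_
    have h1 : (fix A : Subgroup V).relIndex (fix B) ≠ 1 :=
      fun h => hfixne (le_antisymm hfixle (Subgroup.relIndex_eq_one.1 h))
    have h0 : (fix A : Subgroup V).relIndex (fix B) ≠ 0 := fun h => by
      have h' := card_mul_relIndex hfixle
      rw [h, mul_zero] at h'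
      exact (Nat.card_pos (α := ↥(fix B : Subgroup V))).ne h'
    omega
  have heqfix : Nat.card (fix B : Subgroup V) = 2 * Nat.card (fix A : Subgroup V) := by
    refine le_antisymm (Nat.le_of_mul_le_mul_left ?_ (Nat.card_pos (α := ↥B))) hlt
    calc Nat.card B * Nat.card (fix B : Subgroup V) ≤ Nat.card A * Nat.card (fix A : Subgroup V) :=
          hbest B hBA
      _ = Nat.card B * (2 * Nat.card (fix A : Subgroup V)) := by rw [← hcard]; ring
  have hprod : Nat.card B * Nat.card (fix B : Subgroup V) =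
      Nat.card A * Nat.card (fix A : Subgroup V) := by rw [heqfix, ← hcard]; ring
  obtain ⟨hBV, hBgen⟩ := ih _ (by have := Nat.card_pos (α := B); omega) B
    (fun b hb => hA2 b (hBA hb)) (fun C hC => (hbest C (hC.trans hBA)).trans hprod.ge) rfl
  refine ⟨hprod ▸ hBV, le_antisymm ((Subgroup.closure_le _).2 fun t ht => ht.1) ?_⟩
  -- adjust `a₀` so that it fixes a partner of each transvection of `B`
  haveI : Fintype X := Fintype.ofFinite X
  have key : ∀ s : Finset X, (∀ t ∈ s, t ∈ B ∧ ∃ w : V, IsTV t w) →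
      ∃ a ∈ A, a ∉ B ∧ ∃ pw : X → V,
        (∀ t ∈ s, (∃ b : X, b ∈ cl F t ∧ b ≠ t ∧ IsTV b (pw t)) ∧ a • pw t = pw t) ∧
        ∀ v : V, ∃ x ∈ Subgroup.closure (pw '' (↑s : Set X)), ∀ t ∈ s, t • (v * x) = v * x := by
    intro s
    induction s using Finset.induction_on with
    | empty => exact fun _ => ⟨a₀, ha₀, ha₀B, fun _ => 1, by simp,
        fun v => ⟨1, one_mem _, by simp⟩⟩
    | @insert t s hts ih' =>
      intro hs
      obtain ⟨a, ha, haB, pw, hpart, hdec⟩ := ih' fun t ht => hs t (Finset.mem_insert_of_mem ht)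
      obtain ⟨htB, u, htu⟩ := hs t (Finset.mem_insert_self t s)
      obtain ⟨b, hb, w, hbt, hbw, htw, hbu⟩ := exists_partner hS htu
      have hct : Commute a t := hcomm _ ha _ (hBA htB)
      -- the other transvections fix the partners of this one, and conversely
      have horth : ∀ t' ∈ s, t • pw t' = pw t' ∧ t' • w = w := by
        intro t' ht'
        obtain ⟨ht'B, u', htu'⟩ := hs t' (Finset.mem_insert_of_mem ht')
        obtain ⟨⟨b', hb', -, hbw'⟩, -⟩ := hpart t' ht'
        have hcc := hcomm _ (hBA htB) _ (hBA ht'B)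
        have hn1 : t' ∉ cl F t := fun h =>
          hts ((eq_of_mem_of_commute hS htu h hcc) ▸ ht')
        have hn2 : t ∉ cl F t' := fun h =>
          hts ((eq_of_mem_of_commute hS htu' h hcc.symm).symm ▸ ht')
        exact ⟨(fix_partner hS htu' htu hn2 hb' hbw').1, (fix_partner hS htu htu' hn1 hb hbw).1⟩
      -- choose `a` or `t * a`
      obtain ⟨a', ha', ha'B, ha'w, ha'u, hsame⟩ : ∃ a' ∈ A, a' ∉ B ∧ a' • w = w ∧ a' • u = u ∧
          (a' = a ∨ a' = t * a) := by
        have hau : a • u = u := by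
          have h := htu.conj a
          rw [hct.eq, mul_inv_cancel_right] at h
          exact h.unique htu
        have hbcl : a * b * a⁻¹ ∈ cl F t := by
          obtain ⟨g, hg, rfl⟩ := hb
          refine ⟨a * g * a⁻¹, hS.normal.conj_mem g hg a, ?_⟩
          calc a * (g * t * g⁻¹) * a⁻¹ = a * g * (a⁻¹ * (a * t)) * g⁻¹ * a⁻¹ := by group
            _ = a * g * (a⁻¹ * (t * a)) * g⁻¹ * a⁻¹ := by rw [hct.eq]
            _ = _ := by group
        rcases cl_subset hS htu hb hbt hbcl with h | h | h
        · exfalso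
          refine hbt ?_
          calc b = a⁻¹ * (a * b * a⁻¹) * a := by group
            _ = t := by rw [h, mul_assoc, ← hct.eq, inv_mul_cancel_left]
        · exact ⟨a, ha, haB, by
            have h' := hbw.conj a
            rw [h] at h'
            exact h'.unique hbw, hau, .inl rfl⟩
        · refine ⟨t * a, A.mul_mem (hBA htB) ha, fun h' => haB ?_, ?_, ?_, .inr rfl⟩
          · have := B.mul_mem htB h'
            rwa [← mul_assoc, htu.mul_self h2, one_mul] at this
          · have h' := hbw.conj a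
            rw [h] at h'
            rw [mul_smul, h'.unique (third_isTV h2 htu hbw htw), smul_mul', htw,
              htu.apply_center h2, mul_mul_self h2]
          · rw [mul_smul, hau, htu.apply_center h2]
      have himg : Function.update pw t w '' (↑(insert t s) : Set X) =
          insert w (pw '' (↑s : Set X)) := by
        rw [Finset.coe_insert, Set.image_insert_eq, Function.update_self]
        congr 1
        exact Set.image_congr fun x hx => Function.update_of_ne (by rintro rfl; exact hts hx) _ _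
      refine ⟨a', ha', ha'B, Function.update pw t w, ?_, ?_⟩
      · intro t' ht'
        rcases Finset.mem_insert.1 ht' with rfl | ht'
        · rw [Function.update_self]; exact ⟨⟨b, hb, hbt, hbw⟩, ha'w⟩
        rw [Function.update_of_ne (ne_of_mem_of_not_mem ht' hts)]
        refine ⟨(hpart t' ht').1, ?_⟩
        rcases hsame with rfl | rfl
        · exact (hpart t' ht').2
        · rw [mul_smul, (hpart t' ht').2, (horth t' ht').1]
      · intro v
        rw [himg]
        obtain ⟨x, hxW, hx⟩ := hdec v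
        have hxW' : x ∈ Subgroup.closure (insert w (pw '' (↑s : Set X))) :=
          Subgroup.closure_mono (Set.subset_insert _ _) hxW
        rcases htu.moves (v * x) with e | e
        · exact ⟨x, hxW', fun t' ht' => (Finset.mem_insert.1 ht').elim (fun h => h ▸ e) (hx t')⟩
        refine ⟨x * w, mul_mem hxW' (Subgroup.subset_closure (Set.mem_insert _ _)),
          fun t' ht' => ?_⟩
        rw [← mul_assoc, smul_mul']
        rcases Finset.mem_insert.1 ht' with rfl | ht'
        · rw [e, htw, mul_comm w u, ← mul_assoc, mul_mul_self h2]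
        · rw [hx t' ht', (horth t' ht').2]
  obtain ⟨a, ha, haB, pw, hpart, hdec⟩ :=
    key (Finset.univ.filter fun t => t ∈ B ∧ ∃ w : V, IsTV t w) (by simp)
  let U : Subgroup V :=
    { carrier := {v | a • v = v}
      one_mem' := smul_one a
      mul_mem' := fun {x y} (hx : a • x = x) (hy : a • y = y) => by
        show a • (x * y) = x * y
        rw [smul_mul', hx, hy]
      inv_mem' := fun {x} (hx : a • x = x) => by
        show a • x⁻¹ = x⁻¹
        rw [smul_inv', hx] }
  have hUsup : U ⊔ fix B = ⊤ := by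
    refine eq_top_iff.2 fun v _ => ?_
    obtain ⟨x, hxW, hx⟩ := hdec v
    have hax : x ∈ U := by
      refine (Subgroup.closure_le (K := U)).2 ?_ hxW
      rintro _ ⟨t, ht, rfl⟩
      exact (hpart t ht).2
    have hvx : v * x ∈ (fix B : Subgroup V) := by
      intro b hb
      rw [← hBgen] at hb
      induction hb using Subgroup.closure_induction with
      | mem t ht => exact hx t (by simpa using ht)
      | one => exact one_smul X _
      | mul b c _ _ hb hc => rw [mul_smul, hc, hb]
      | inv b _ hb => exact inv_smul_eq_iff.2 hb.symm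
    rw [← mul_mul_self h2 v x]
    exact mul_mem (Subgroup.mem_sup_right hvx) (Subgroup.mem_sup_left hax)
  have hinter : U ⊓ fix B = fix A := by
    refine le_antisymm (fun v hv y hy => ?_)
      (le_inf (fun v hv => hv a ha) hfixle)
    rcases hcover y hy with h | h
    · exact hv.2 y h
    have haa : a₀ * a ∈ B := (hcover a ha).resolve_left haB
    have hay : a * y ∈ B := by
      have h' := B.mul_mem (B.inv_mem haa) h
      rwa [mul_inv_rev, inv_eq_of_mul_eq_one_right (hA2 a ha), mul_assoc, inv_mul_cancel_left]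
        at h'
    calc y • v = a • (a * y) • v := by rw [← mul_smul, ← mul_assoc, hA2 a ha, one_mul]
      _ = v := by rw [hv.2 _ hay]; exact hv.1
  have hUidx : U.index = 2 := by
    rw [← Subgroup.relIndex_top_right, ← hUsup, sup_comm, Subgroup.relIndex_sup_right,
      ← Subgroup.inf_relIndex_right, hinter]
    have h := card_mul_relIndex hfixle
    rw [heqfix, mul_comm 2] at h
    exact Nat.eq_of_mul_eq_mul_left Nat.card_pos h
  obtain ⟨w, hw⟩ := isTV_of_index hS (fun _ => Iff.rfl) hUidx
  have hBle : B ≤ Subgroup.closure {t | t ∈ A ∧ ∃ w : V, IsTV t w} := by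
    conv_lhs => rw [← hBgen]
    exact Subgroup.closure_mono fun t ht => ⟨hBA ht.1, ht.2⟩
  intro y hy
  rcases hcover y hy with h | h
  · exact hBle h
  have haa : a₀ * a ∈ B := (hcover a ha).resolve_left haB
  have hay : a * y ∈ B := by
    have h' := B.mul_mem (B.inv_mem haa) h
    rwa [mul_inv_rev, inv_eq_of_mul_eq_one_right (hA2 a ha), mul_assoc, inv_mul_cancel_left] at h'
  rw [show y = a * (a * y) by rw [← mul_assoc, hA2 a ha, one_mul]]
  exact mul_mem (Subgroup.subset_closure ⟨ha, w, hw⟩)
    (hBle hay)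

end setting

end CfsgLib.JComponents
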